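import Cfsg.Agent.Lib.Helper3.BG12Defs

/-! helper63: piece BG12P14B of helper3's B&G section 12 project (pure group theory). -/

set_option autoImplicit false

open Cfsg Cfsg.Agent.Lib.Helper32 Cfsg.Agent.Lib.Helper32.BG10 Cfsg.Agent.Lib.Helper3.BG12

namespace Cfsg.Agent.Lib.Helper63.BG12
universe u
variable {G : Type u} [Group G] [Finite G]

open scoped commutatorElement

omit [Finite G] in
/-- a factor commuting with `y` can be dropped from the left entry of a commutator -/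
theorem comm_mul_left_of_commute {x y c : G} (h : c * y = y * c) : ⁅x * c, y⁆ = ⁅x, y⁆ := by
  rw [commutatorElement_def, commutatorElement_def]
  have h1 : x * c * y * (x * c)⁻¹ * y⁻¹ = x * (c * y) * c⁻¹ * x⁻¹ * y⁻¹ := by group
  rw [h1, h]
  group

omit [Finite G] in
/-- a factor commuting with `x` can be dropped from the right entry of a commutator -/
theorem comm_mul_right_of_commute {x y c : G} (h : c * x = x * c) : ⁅x, y * c⁆ = ⁅x, y⁆ := by
  rw [commutatorElement_def, commutatorElement_def]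
  have h1 : x * (y * c) * x⁻¹ * (y * c)⁻¹ = x * y * (c * x⁻¹) * c⁻¹ * y⁻¹ := by group
  have h2 : c * x⁻¹ = x⁻¹ * c := by
    calc c * x⁻¹ = x⁻¹ * (x * c) * x⁻¹ := by group
      _ = x⁻¹ * (c * x) * x⁻¹ := by rw [h]
      _ = x⁻¹ * c := by group
  rw [h1, h2]
  group

/-- in a group of order `p ^ 3` all commutators are central -/
theorem comm_central_of_card_cube {p : ℕ} [Fact p.Prime] (Λ : Type*) [Group Λ] [Finite Λ]
    (hΛ : Nat.card Λ = p ^ 3) (a₁ a₂ x : Λ) : ⁅a₁, a₂⁆ * x = x * ⁅a₁, a₂⁆ := by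
  have hp : p.Prime := Fact.out
  have hpg : IsPGroup p Λ := IsPGroup.of_card hΛ
  have hnt : Nontrivial Λ := by
    rw [← Finite.one_lt_card_iff_nontrivial, hΛ]
    exact Nat.one_lt_pow (by norm_num) hp.one_lt
  have hZnt : Nontrivial (Subgroup.center Λ) := hpg.center_nontrivial
  have hmul := Subgroup.card_eq_card_quotient_mul_card_subgroup (Subgroup.center Λ)
  rw [hΛ] at hmul
  have hZdvd : Nat.card (Subgroup.center Λ) ∣ p ^ 3 := ⟨_, by rw [hmul, mul_comm]⟩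
  obtain ⟨j, hj3, hj⟩ := (Nat.dvd_prime_pow hp).mp hZdvd
  have hj1 : 1 ≤ j := by
    by_contra hcon
    have hj0 : j = 0 := by omega
    rw [hj0, pow_zero] at hj
    have h1 : 1 < Nat.card (Subgroup.center Λ) := Finite.one_lt_card_iff_nontrivial.mpr hZnt
    omega
  have hQ : Nat.card (Λ ⧸ Subgroup.center Λ) = p ^ (3 - j) := by
    rw [hj] at hmul
    have h1 : p ^ 3 = p ^ (3 - j) * p ^ j := by
      rw [← pow_add]
      congr 1
      omega
    rw [h1] at hmul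
    exact (Nat.eq_of_mul_eq_mul_right (pow_pos hp.pos j) hmul).symm
  have hQcomm : ∀ u v : Λ ⧸ Subgroup.center Λ, u * v = v * u := by
    have h3 : 3 - j = 0 ∨ 3 - j = 1 ∨ 3 - j = 2 := by omega
    rcases h3 with h | h | h
    · rw [h, pow_zero] at hQ
      have hs : Subsingleton (Λ ⧸ Subgroup.center Λ) :=
        (Nat.card_eq_one_iff_unique.mp hQ).1
      intro u v
      exact Subsingleton.elim _ _
    · rw [h, pow_one] at hQ
      have hc : IsCyclic (Λ ⧸ Subgroup.center Λ) := isCyclic_of_prime_card hQ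
      intro u v
      exact (IsMulCommutative.is_comm (M := Λ ⧸ Subgroup.center Λ)).comm u v
    · rw [h] at hQ
      exact (IsPGroup.isMulCommutative_of_card_eq_prime_sq hQ).is_comm.comm
  have h1 : (QuotientGroup.mk' (Subgroup.center Λ)) ⁅a₁, a₂⁆ = 1 := by
    rw [map_commutatorElement]
    exact commutatorElement_eq_one_iff_mul_comm.mpr (hQcomm _ _)
  have h2 : ⁅a₁, a₂⁆ ∈ Subgroup.center Λ := (QuotientGroup.eq_one_iff _).mp h1
  exact (Subgroup.mem_center_iff.mp h2 x).symm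

theorem le_centralizer_of_cprod {p : ℕ} [Fact p.Prime] {R P₁ P₂ X : Subgroup G}
    (hsup : P₁ ⊔ P₂ = R) (hcomm : ∀ a ∈ P₁, ∀ b ∈ P₂, a * b = b * a)
    (hP₁ : Nat.card P₁ = p ^ 3) (hP₂ : IsCyclic P₂) (hX : X ≤ ⁅R, R⁆) :
    R ≤ Subgroup.centralizer (X : Set G) := by
  -- `P₂` is commutative
  have hP₂comm : ∀ b ∈ P₂, ∀ b' ∈ P₂, b * b' = b' * b := by
    intro b hb b' hb'
    have h1 := (IsMulCommutative.is_comm (M := P₂)).comm ⟨b, hb⟩ ⟨b', hb'⟩
    exact congrArg Subtype.val h1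
  -- elements of `P₂` commute with all of `R`
  have hP₂R : ∀ b ∈ P₂, ∀ r ∈ R, b * r = r * b := by
    intro b hb r hr
    have h1 : P₁ ≤ Subgroup.centralizer ({b} : Set G) := by
      intro a ha
      rw [Subgroup.mem_centralizer_iff]
      intro h hh
      rw [Set.mem_singleton_iff] at hh
      rw [hh]
      exact (hcomm a ha b hb).symm
    have h2 : P₂ ≤ Subgroup.centralizer ({b} : Set G) := by
      intro b' hb'
      rw [Subgroup.mem_centralizer_iff]
      intro h hh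
      rw [Set.mem_singleton_iff] at hh
      rw [hh]
      exact hP₂comm b hb b' hb'
    have h3 : r ∈ Subgroup.centralizer ({b} : Set G) := by
      rw [← hsup] at hr
      exact (sup_le h1 h2) hr
    rw [Subgroup.mem_centralizer_iff] at h3
    exact h3 b rfl
  -- the product set `P₁ P₂` is a subgroup containing `R`
  let D : Subgroup G :=
    { carrier := {r | ∃ a ∈ P₁, ∃ b ∈ P₂, r = a * b}
      mul_mem' := by
        rintro _ _ ⟨a, ha, b, hb, rfl⟩ ⟨a', ha', b', hb', rfl⟩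
        refine ⟨a * a', P₁.mul_mem ha ha', b * b', P₂.mul_mem hb hb', ?_⟩
        have h1 := hcomm a' ha' b hb
        calc a * b * (a' * b') = a * (b * a') * b' := by group
          _ = a * (a' * b) * b' := by rw [h1]
          _ = a * a' * (b * b') := by group
      one_mem' := ⟨1, P₁.one_mem, 1, P₂.one_mem, (one_mul 1).symm⟩
      inv_mem' := by
        rintro _ ⟨a, ha, b, hb, rfl⟩
        refine ⟨a⁻¹, P₁.inv_mem ha, b⁻¹, P₂.inv_mem hb, ?_⟩
        have h1 := hcomm a⁻¹ (P₁.inv_mem ha) b⁻¹ (P₂.inv_mem hb)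
        rw [mul_inv_rev, h1] }
  have hRD : ∀ r ∈ R, ∃ a ∈ P₁, ∃ b ∈ P₂, r = a * b := by
    intro r hr
    have h1 : P₁ ≤ D := fun a ha => ⟨a, ha, 1, P₂.one_mem, (mul_one a).symm⟩
    have h2 : P₂ ≤ D := fun b hb => ⟨1, P₁.one_mem, b, hb, (one_mul b).symm⟩
    rw [← hsup] at hr
    exact (sup_le h1 h2) hr
  have hP₁R : P₁ ≤ R := hsup ▸ le_sup_left
  have hP₂le : P₂ ≤ R := hsup ▸ le_sup_right
  -- commutators of `P₁` commute with all of `R`
  have hc : ∀ a₁ ∈ P₁, ∀ a₂ ∈ P₁, ∀ r ∈ R, r * ⁅a₁, a₂⁆ = ⁅a₁, a₂⁆ * r := by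
    intro a₁ ha₁ a₂ ha₂ r hr
    obtain ⟨a, ha, b, hb, rfl⟩ := hRD r hr
    have hcP : ⁅a₁, a₂⁆ ∈ P₁ := by
      rw [commutatorElement_def]
      exact P₁.mul_mem (P₁.mul_mem (P₁.mul_mem ha₁ ha₂) (P₁.inv_mem ha₁)) (P₁.inv_mem ha₂)
    have h1 := comm_central_of_card_cube (p := p) ↥P₁ hP₁ ⟨a₁, ha₁⟩ ⟨a₂, ha₂⟩ ⟨a, ha⟩
    have h2 : ⁅a₁, a₂⁆ * a = a * ⁅a₁, a₂⁆ := by
      have h3 := congrArg (fun t : P₁ => (t : G)) h1
      simpa [commutatorElement_def] using h3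
    have h4 : ⁅a₁, a₂⁆ * b = b * ⁅a₁, a₂⁆ := hcomm _ hcP b hb
    calc a * b * ⁅a₁, a₂⁆ = a * (b * ⁅a₁, a₂⁆) := by group
      _ = a * (⁅a₁, a₂⁆ * b) := by rw [h4]
      _ = (a * ⁅a₁, a₂⁆) * b := by group
      _ = (⁅a₁, a₂⁆ * a) * b := by rw [h2]
      _ = ⁅a₁, a₂⁆ * (a * b) := by group
  -- the commutator subgroup of `R` is central in `R`
  have hder : ⁅R, R⁆ ≤ Subgroup.centralizer (R : Set G) := by
    rw [Subgroup.commutator_le]
    intro r₁ hr₁ r₂ hr₂
    obtain ⟨a₁, ha₁, b₁, hb₁, rfl⟩ := hRD r₁ hr₁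
    obtain ⟨a₂, ha₂, b₂, hb₂, rfl⟩ := hRD r₂ hr₂
    have h1 : ⁅a₁ * b₁, a₂ * b₂⁆ = ⁅a₁, a₂⁆ := by
      rw [comm_mul_left_of_commute (hP₂R b₁ hb₁ _ hr₂),
        comm_mul_right_of_commute (hP₂R b₂ hb₂ a₁ (hP₁R ha₁))]
    rw [h1, Subgroup.mem_centralizer_iff]
    intro r hr
    exact hc a₁ ha₁ a₂ ha₂ r hr
  intro r hr
  rw [Subgroup.mem_centralizer_iff]
  intro x hx
  have h1 := hder (hX hx)
  rw [Subgroup.mem_centralizer_iff] at h1
  exact (h1 r hr).symm

end Cfsg.Agent.Lib.Helper63.BG12
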