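import Cfsg.Agent.Lib.Helper3.BG12Defs

/-! helper63: piece BG12P16X of helper3's B&G section 12 project (pure group theory). -/

set_option autoImplicit false

open Cfsg Cfsg.Agent.Lib.Helper32 Cfsg.Agent.Lib.Helper32.BG10 Cfsg.Agent.Lib.Helper3.BG12

namespace Cfsg.Agent.Lib.Helper63.BG12
universe u
variable {G : Type u} [Group G] [Finite G]

open scoped commutatorElement

/-- a nontrivial finite solvable group has a nontrivial normal `q`-subgroup -/
theorem exists_normal_pgroup_aux (Λ : Type*) [Group Λ] [Finite Λ] [Nontrivial Λ]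
    [Group.IsSolvable Λ] :
    ∃ q : ℕ, q.Prime ∧ ∃ X₀ : Subgroup Λ, X₀.Normal ∧ X₀ ≠ ⊥ ∧ IsPGroup q X₀ := by
  classical
  have hex : ∃ n : ℕ, derivedSeries Λ n = ⊥ := (Group.isSolvable_def Λ).mp inferInstance
  have hmin : ∀ {m : ℕ}, m < Nat.find hex → ¬ derivedSeries Λ m = ⊥ := fun {m} h => Nat.find_min hex h
  have hspec := Nat.find_spec hex
  have hn0 : Nat.find hex ≠ 0 := by
    intro h0
    rw [h0, derivedSeries_zero] at hspec
    exact top_ne_bot hspec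
  obtain ⟨k, hk⟩ := Nat.exists_eq_succ_of_ne_zero hn0
  obtain ⟨A, hA⟩ : ∃ A : Subgroup Λ, A = derivedSeries Λ k := ⟨_, rfl⟩
  have hAn : A.Normal := hA ▸ inferInstance
  have hAbot : A ≠ ⊥ := by
    rw [hA]
    exact hmin (by omega)
  have hAcomm : ∀ a ∈ A, ∀ b ∈ A, a * b = b * a := by
    intro a ha b hb
    have h1 : ⁅a, b⁆ ∈ ⁅A, A⁆ := Subgroup.commutator_mem_commutator ha hb
    have h2 : ⁅A, A⁆ = ⊥ := by
      rw [hA, ← derivedSeries_succ, ← Nat.succ_eq_add_one, ← hk]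
      exact hspec
    rw [h2, Subgroup.mem_bot] at h1
    exact commutatorElement_eq_one_iff_mul_comm.mp h1
  have hcard : Nat.card A ≠ 1 := fun h => hAbot (Subgroup.card_eq_one.mp h)
  obtain ⟨q, hq, hqA⟩ := Nat.exists_prime_and_dvd hcard
  have := Fact.mk hq
  let X₀ : Subgroup Λ :=
    { carrier := {a | a ∈ A ∧ a ^ q = 1}
      mul_mem' := by
        rintro a b ⟨ha, haq⟩ ⟨hb, hbq⟩
        refine ⟨A.mul_mem ha hb, ?_⟩
        rw [(show Commute a b from hAcomm a ha b hb).mul_pow, haq, hbq, one_mul]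
      one_mem' := ⟨A.one_mem, one_pow q⟩
      inv_mem' := by
        rintro a ⟨ha, haq⟩
        exact ⟨A.inv_mem ha, by rw [inv_pow, haq, inv_one]⟩ }
  have hX₀mem : ∀ a : Λ, a ∈ X₀ ↔ a ∈ A ∧ a ^ q = 1 := fun a => Iff.rfl
  refine ⟨q, hq, X₀, ⟨?_⟩, ?_, ?_⟩
  · intro a ha g
    rw [hX₀mem] at ha ⊢
    refine ⟨hAn.conj_mem a ha.1 g, ?_⟩
    rw [conj_pow, ha.2, mul_one, mul_inv_cancel]
  · obtain ⟨a, ha⟩ := exists_prime_orderOf_dvd_card' (G := A) q hqA
    intro hbot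
    have h1 : (a : Λ) ∈ X₀ := by
      rw [hX₀mem]
      refine ⟨a.2, ?_⟩
      have h2 : a ^ q = 1 := by rw [← ha]; exact pow_orderOf_eq_one a
      have h3 := congrArg (fun t : A => (t : Λ)) h2
      simpa using h3
    rw [hbot, Subgroup.mem_bot] at h1
    have h4 : a = 1 := Subtype.ext h1
    rw [h4, orderOf_one] at ha
    exact hq.one_lt.ne ha
  · rintro ⟨x, hx⟩
    refine ⟨1, Subtype.ext ?_⟩
    rw [pow_one]
    exact ((hX₀mem x).mp hx).2

omit [Finite G] in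
/-- a normal subgroup of `↥H` is normalized by `H` in the ambient group -/
theorem le_normalizer_map_subtype' (H : Subgroup G) (N : Subgroup H) [N.Normal] :
    H ≤ Subgroup.normalizer ((N.map H.subtype : Subgroup G) : Set G) := by
  have key : ∀ y ∈ H, ∀ h ∈ N.map H.subtype, y * h * y⁻¹ ∈ N.map H.subtype := by
    rintro y hy _ ⟨n, hn, rfl⟩
    refine ⟨⟨y, hy⟩ * n * ⟨y, hy⟩⁻¹, ‹N.Normal›.conj_mem n hn ⟨y, hy⟩, ?_⟩
    simp
  intro y hy
  rw [Subgroup.mem_normalizer_iff]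
  intro h
  constructor
  · exact key y hy h
  · intro hh
    have h1 := key y⁻¹ (H.inv_mem hy) _ hh
    have h2 : y⁻¹ * (y * h * y⁻¹) * y⁻¹⁻¹ = h := by group
    rwa [h2] at h1

theorem exists_normal_pgroup_of_solvable {Y : Subgroup G} [Group.IsSolvable ↥Y] (hY : Y ≠ ⊥) :
    ∃ q : ℕ, q.Prime ∧ ∃ X : Subgroup G, X ≤ Y ∧ X ≠ ⊥ ∧ IsPGroup q X ∧
      Y ≤ Subgroup.normalizer (X : Set G) := by
  have hnt : Nontrivial ↥Y := (Subgroup.nontrivial_iff_ne_bot Y).mpr hY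
  obtain ⟨q, hq, X₀, hX₀n, hX₀bot, hX₀q⟩ := exists_normal_pgroup_aux ↥Y
  refine ⟨q, hq, X₀.map Y.subtype, Subgroup.map_subtype_le X₀, ?_, hX₀q.map Y.subtype, ?_⟩
  · intro h
    exact hX₀bot ((Subgroup.map_eq_bot_iff_of_injective X₀ Y.subtype_injective).mp h)
  · exact le_normalizer_map_subtype' Y X₀

end Cfsg.Agent.Lib.Helper63.BG12
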