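import Cfsg.Agent.S1404
import Cfsg.Agent.S1410
import Cfsg.Agent.Lib.Helper32.BG10Basic
import Cfsg.Agent.Lib.Helper32.Trans2
import Cfsg.Agent.Lib.Helper34.CN
import Cfsg.Agent.Lib.Helper34.PLen

/-!
# S1384 piece NF-SYL (helper41): in a proper subgroup of a minimal simple group of odd order, the
normalizer of a Sylow `q`-subgroup controls fusion of its elements.
-/

set_option autoImplicit false

open Cfsg Cfsg.Agent.Lib.Helper32 Cfsg.Agent.Lib.Helper32.BG10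

namespace Cfsg.Agent.Lib.Helper63.NF

universe u

variable {G : Type u} [Group G] [Finite G]

/-- NF-SYL: in a proper subgroup `W` (of `q`-length one by S1410), the normalizer of a Sylow
`q`-subgroup `P` of `W` controls fusion of elements of `P`. -/
theorem fus_syl (hG : IsMinSimpleOddOrder G) {W : Subgroup G} (hW : W ≠ ⊤) {q : ℕ} [Fact q.Prime]
    {P : Subgroup G} (hP : P ∈ sylSet q W) {a c : G} (ha : a ∈ P) (hc : c ∈ W)
    (hca : c * a * c⁻¹ ∈ P) :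
    ∃ n ∈ W, n ∈ Subgroup.normalizer (P : Set G) ∧ n * a * n⁻¹ = c * a * c⁻¹ := by
  have hpl : PLengthLE q 1 ↥W := Cfsg.Agent.S1410.result hG q W hW
  obtain ⟨S, hS⟩ := exists_sylow_of_mem_sylSet hP
  have hPW : P ≤ W := hP.1
  have hmem : ∀ w : ↥W, w ∈ (S : Subgroup ↥W) ↔ (w : G) ∈ P := by
    intro w
    rw [← hS]
    constructor
    · intro h; exact ⟨w, h, rfl⟩
    · rintro ⟨w', hw', hww⟩
      have : w' = w := Subtype.ext hww
      rw [← this]; exact hw'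
  obtain ⟨O, hO⟩ : ∃ O : Subgroup ↥W, O = (Cfsg.upperPSeries q ↥W 1).1 := ⟨_, rfl⟩
  have hOn : O.Normal := by rw [hO]; exact (Cfsg.upperPSeries q ↥W 1).2
  have hOc : (Nat.card O).Coprime q := by
    rw [hO]; exact Cfsg.Agent.Lib.Helper34.card_upperPSeries_one_coprime q
  have htop : O ⊔ Subgroup.normalizer ((S : Subgroup ↥W) : Set ↥W) = ⊤ := by
    rw [hO]; exact Cfsg.Agent.Lib.Helper34.plength_one_sup_normalizer q hpl S
  obtain ⟨x, hx⟩ : ∃ x : ↥W, x = ⟨a, hPW ha⟩ := ⟨_, rfl⟩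
  obtain ⟨g, hg⟩ : ∃ g : ↥W, g = ⟨c, hc⟩ := ⟨_, rfl⟩
  have hxS : x ∈ (S : Subgroup ↥W) := by rw [hmem, hx]; exact ha
  have hyS : g * x * g⁻¹ ∈ (S : Subgroup ↥W) := by rw [hmem, hg, hx]; exact hca
  have hgm : g ∈ Subgroup.normalizer ((S : Subgroup ↥W) : Set ↥W) ⊔ O := by
    rw [sup_comm, htop]; trivial
  obtain ⟨n, hn, o, ho, hno⟩ := Subgroup.mem_sup_of_normal_right.mp hgm
  have h1 : o * x * o⁻¹ = n⁻¹ * (g * x * g⁻¹) * n := by rw [← hno]; group
  have h2 : o * x * o⁻¹ ∈ (S : Subgroup ↥W) := by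
    rw [h1]
    have hn' : n⁻¹ ∈ Subgroup.normalizer ((S : Subgroup ↥W) : Set ↥W) := inv_mem hn
    have := (Subgroup.mem_normalizer_iff.mp hn' (g * x * g⁻¹)).mp hyS
    simpa using this
  have h3 : o * x * o⁻¹ * x⁻¹ ∈ (S : Subgroup ↥W) := mul_mem h2 (inv_mem hxS)
  have h4 : o * x * o⁻¹ * x⁻¹ ∈ O := by
    have : x * o⁻¹ * x⁻¹ ∈ O := hOn.conj_mem _ (inv_mem ho) x
    have h5 : o * x * o⁻¹ * x⁻¹ = o * (x * o⁻¹ * x⁻¹) := by group
    rw [h5]; exact mul_mem ho this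
  have hdisj : O ⊓ (S : Subgroup ↥W) = ⊥ := by
    have hSp : IsPGroup q (S : Subgroup ↥W) := S.isPGroup'
    obtain ⟨k, hk⟩ := IsPGroup.iff_card.mp hSp
    exact (Subgroup.disjoint_of_coprime_natCard
      (by rw [hk]; exact Nat.Coprime.pow_right k hOc)).eq_bot
  have h6 : o * x * o⁻¹ * x⁻¹ = 1 := by
    have : o * x * o⁻¹ * x⁻¹ ∈ O ⊓ (S : Subgroup ↥W) := ⟨h4, h3⟩
    rw [hdisj] at this
    exact Subgroup.mem_bot.mp this
  have h7 : o * x * o⁻¹ = x := mul_inv_eq_one.mp h6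
  have h8 : n * x * n⁻¹ = g * x * g⁻¹ := by
    rw [← hno]
    calc n * x * n⁻¹ = n * (o * x * o⁻¹) * n⁻¹ := by rw [h7]
      _ = n * o * x * (n * o)⁻¹ := by group
  refine ⟨(n : G), n.2, ?_, ?_⟩
  · apply Subgroup.mem_normalizer_fintype
    intro h hh
    have := (Subgroup.mem_normalizer_iff.mp hn ⟨h, hPW hh⟩).mp ((hmem _).2 hh)
    exact (hmem _).1 this
  · have := congrArg Subtype.val h8
    rw [hx, hg] at this
    exact this

end Cfsg.Agent.Lib.Helper63.NF
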