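import Mathlib
import Cfsg.Agent.S3378
import Cfsg.Agent.S0016
import Cfsg.Agent.S0040
import Cfsg.Agent.S0035
import Cfsg.Agent.S0039
import Cfsg.Agent.S3375
set_option autoImplicit false
open Cfsg

namespace Cfsg.Agent.Lib.Helper63.FrobComp

open Cfsg.Agent.S3378 (SL25 gx gy gz)

abbrev E4 := ZMod 5 × ZMod 5 × ZMod 5 × ZMod 5

def ent (X : SL25) : E4 := (X.1 0 0, X.1 0 1, X.1 1 0, X.1 1 1)

lemma ent_inj : Function.Injective ent := by
  intro X Y h
  simp only [ent, Prod.mk.injEq] at h
  apply Subtype.ext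
  ext i j
  fin_cases i <;> fin_cases j
  · exact h.1
  · exact h.2.1
  · exact h.2.2.1
  · exact h.2.2.2

def T20 : Finset E4 :=
  {(0, 1, 4, 4), (0, 2, 2, 4), (0, 3, 3, 4), (0, 4, 1, 4), (1, 1, 2, 3), (1, 2, 1, 3), (1, 3, 4, 3),
   (1, 4, 3, 3), (2, 1, 3, 2), (2, 2, 4, 2), (2, 3, 1, 2), (2, 4, 2, 2), (3, 1, 2, 1), (3, 2, 1, 1),
   (3, 3, 4, 1), (3, 4, 3, 1), (4, 1, 4, 0), (4, 2, 2, 0), (4, 3, 3, 0), (4, 4, 1, 0)}

def T6 : Finset E4 :=
  {(0, 4, 1, 2), (1, 0, 1, 1), (1, 4, 0, 1), (2, 2, 2, 0), (2, 3, 3, 0), (3, 3, 2, 4)}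

lemma T20_card : T20.card ≤ 20 := by decide +kernel
lemma T6_card : T6.card ≤ 6 := by decide +kernel

abbrev M2 := Matrix (Fin 2) (Fin 2) (ZMod 5)

lemma keyA : ∀ a b c d : ZMod 5,
    (!![a, b; c, d] : M2) * !![a, b; c, d] * !![a, b; c, d] = 1 →
    (!![a, b; c, d] : M2) ≠ 1 → (a, b, c, d) ∈ T20 := by decide +kernel

lemma keyB : ∀ a b c d : ZMod 5,
    (!![a, b; c, d] : M2) * !![a, b; c, d] * !![a, b; c, d] * !![a, b; c, d] * !![a, b; c, d] = 1 →
    (!![0, 1; 4, 4] * !![a, b; c, d] : M2) * (!![0, 1; 4, 4] * !![a, b; c, d]) = !![4, 0; 0, 4] →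
    (a, b, c, d) ∈ T6 := by decide +kernel

lemma keyC : ∀ a b c d : ZMod 5,
    (!![a, b; c, d] : M2) * !![0, 1; 4, 4] = !![0, 1; 4, 4] * !![a, b; c, d] →
    (!![a, b; c, d] : M2) * !![0, 4; 1, 2] = !![0, 4; 1, 2] * !![a, b; c, d] →
    (!![a, b; c, d] : M2) = 1 ∨ (!![a, b; c, d] : M2) = !![4, 0; 0, 4] ∨ a * d - b * c ≠ 1 := by
  decide +kernel

lemma gx_val : gx.1 = !![0, 1; 4, 4] := rfl
lemma gy_val : gy.1 = !![0, 4; 1, 2] := rfl
lemma gz_val : gz.1 = !![4, 0; 0, 4] := rfl

lemma lemA (X : SL25) (h3 : X ^ 3 = 1) (h1 : X ≠ 1) : ent X ∈ T20 := by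
  have e := Matrix.eta_fin_two X.1
  have h3' : X.1 * X.1 * X.1 = 1 := by
    have := congrArg Subtype.val h3
    simpa [pow_succ] using this
  have h1' : X.1 ≠ 1 := fun h => h1 (Subtype.ext h)
  rw [e] at h3' h1'
  exact keyA _ _ _ _ h3' h1'

lemma lemB (Y : SL25) (h5 : Y ^ 5 = 1) (h2 : (gx * Y) ^ 2 = gz) : ent Y ∈ T6 := by
  have e := Matrix.eta_fin_two Y.1
  have h5' : Y.1 * Y.1 * Y.1 * Y.1 * Y.1 = 1 := by
    have := congrArg Subtype.val h5
    simpa [pow_succ] using this
  have h2' : (gx.1 * Y.1) * (gx.1 * Y.1) = gz.1 := by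
    have := congrArg Subtype.val h2
    simpa [pow_succ] using this
  rw [gx_val, gz_val, e] at h2'
  rw [e] at h5'
  exact keyB _ _ _ _ h5' h2'

lemma lemC (M : SL25) (hx : M * gx = gx * M) (hy : M * gy = gy * M) : M = 1 ∨ M = gz := by
  have e := Matrix.eta_fin_two M.1
  have hx' : M.1 * gx.1 = gx.1 * M.1 := by
    have := congrArg Subtype.val hx
    simpa using this
  have hy' : M.1 * gy.1 = gy.1 * M.1 := by
    have := congrArg Subtype.val hy
    simpa using this
  rw [gx_val, e] at hx'
  rw [gy_val, e] at hy'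
  have hd : M.1 0 0 * M.1 1 1 - M.1 0 1 * M.1 1 0 = 1 := by
    have := M.2
    rw [Matrix.det_fin_two] at this
    exact this
  rcases keyC _ _ _ _ hx' hy' with h | h | h
  · left; apply Subtype.ext; rw [e]; exact h
  · right; apply Subtype.ext; rw [e, gz_val]; exact h
  · exact absurd hd h

lemma gx3 : gx ^ 3 = 1 := by decide +kernel
lemma gx1 : gx ≠ 1 := by decide +kernel
lemma gy5 : gy ^ 5 = 1 := by decide +kernel
lemma gy1 : gy ≠ 1 := by decide +kernel
lemma gxy : (gx * gy) ^ 2 = gz := by decide +kernel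
lemma gz1 : gz ≠ 1 := by decide +kernel
lemma gz2 : gz ^ 2 = 1 := by decide +kernel

def gw : SL25 := ⟨!![0, 1; 4, 0], by decide⟩
lemma gw2 : gw ^ 2 ≠ 1 := by decide +kernel
lemma gw4 : gw ^ 4 = 1 := by decide +kernel

lemma gen : Subgroup.closure ({gx, gy} : Set SL25) = ⊤ := by
  have h1 : Subgroup.closure (Set.range (PresentedGroup.of : Fin 3 → Cfsg.Agent.S3378.PG)) = ⊤ :=
    PresentedGroup.closure_range_of _
  have h2 : (⊤ : Subgroup SL25) = Subgroup.map Cfsg.Agent.S3378.φ ⊤ := by
    rw [← MonoidHom.range_eq_map]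
    exact (MonoidHom.range_eq_top.mpr Cfsg.Agent.S3378.φ_surj).symm
  rw [eq_top_iff, h2, ← h1, MonoidHom.map_closure, Subgroup.closure_le]
  rintro _ ⟨_, ⟨t, rfl⟩, rfl⟩
  have ht : Cfsg.Agent.S3378.φ (PresentedGroup.of t) = Cfsg.Agent.S3378.fA t :=
    Cfsg.Agent.S3378.φ_X t
  rw [ht]
  have hgx : gx ∈ Subgroup.closure ({gx, gy} : Set SL25) := Subgroup.subset_closure (by simp)
  have hgy : gy ∈ Subgroup.closure ({gx, gy} : Set SL25) := Subgroup.subset_closure (by simp)
  fin_cases t
  · exact hgx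
  · exact hgy
  · have : Cfsg.Agent.S3378.fA (2 : Fin 3) = (gx * gy) ^ 2 := by
      rw [gxy]; rfl
    show Cfsg.Agent.S3378.fA (2 : Fin 3) ∈ _
    rw [this]
    exact Subgroup.pow_mem _ (Subgroup.mul_mem _ hgx hgy) 2


theorem index_le_of_inj {G : Type*} [Group G] [Finite G] (H : Subgroup G) {β : Type*}
    (f : G → β) (T : Finset β) (hT : ∀ g, f g ∈ T) (hf : ∀ g g', f g = f g' → g⁻¹ * g' ∈ H) :
    H.index ≤ T.card := by
  rw [Subgroup.index_eq_card]
  have h1 : Nat.card (G ⧸ H) ≤ Nat.card T := by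
    apply Nat.card_le_card_of_injective (fun q : G ⧸ H => (⟨f q.out, hT _⟩ : T))
    intro q q' h
    have h' : f q.out = f q'.out := congrArg Subtype.val h
    have h2 := hf _ _ h'
    rw [← QuotientGroup.eq] at h2
    simpa using h2
  simpa using h1

lemma mem_of_orderOf_eq {G : Type*} [Group G] [Finite G]
    (hab : ∀ A : Subgroup G, IsMulCommutative A → IsCyclic A)
    (c s : G) (hcs : c * s = s * c) (ho : orderOf c = orderOf s) : c ∈ Subgroup.zpowers s := by
  classical
  let A : Subgroup G := Subgroup.closure {c, s}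
  have hA : IsMulCommutative A := Subgroup.isMulCommutative_closure (by
    intro a ha b hb
    simp only [Set.mem_insert_iff, Set.mem_singleton_iff] at ha hb
    rcases ha with rfl | rfl <;> rcases hb with rfl | rfl
    · rfl
    · exact hcs
    · exact hcs.symm
    · rfl)
  have hcyc : IsCyclic A := hab A hA
  have hcA : c ∈ A := Subgroup.subset_closure (by simp)
  have hsA : s ∈ A := Subgroup.subset_closure (by simp)
  have key := Cfsg.Agent.S0016.le_of_card_dvd_of_isCyclic (A := A)
    (Subgroup.zpowers (⟨c, hcA⟩ : A)) (Subgroup.zpowers (⟨s, hsA⟩ : A)) (by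
      rw [Nat.card_zpowers, Nat.card_zpowers, Subgroup.orderOf_mk, Subgroup.orderOf_mk, ho])
  have hmem : (⟨c, hcA⟩ : A) ∈ Subgroup.zpowers (⟨s, hsA⟩ : A) := key (Subgroup.mem_zpowers _)
  obtain ⟨k, hk⟩ := Subgroup.mem_zpowers_iff.mp hmem
  refine Subgroup.mem_zpowers_iff.mpr ⟨k, ?_⟩
  have := congrArg Subtype.val hk
  simpa using this


lemma card_SL25 : Nat.card SL25 = 120 := by
  rw [Nat.card_eq_fintype_card]
  decide +kernel

theorem core {G : Type*} [Group G] [Finite G]
    (hab : ∀ A : Subgroup G, IsMulCommutative A → IsCyclic A)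
    (hinv : ∀ s t : G, orderOf s = 2 → orderOf t = 2 → s = t)
    (S : Subgroup G) [hSn : S.Normal] (φ : S ≃* SL25) :
    ∃ G₀ : Subgroup G, G₀.Normal ∧ (G₀.index = 1 ∨ G₀.index = 2) ∧
      ∃ S M : Subgroup G, S ⊔ M = G₀ ∧ S ⊓ M = ⊥ ∧ (∀ s ∈ S, ∀ x ∈ M, s * x = x * s) ∧
        Nonempty (S ≃* SL25) ∧
        (∀ (p : ℕ) [Fact p.Prime] (P : Sylow p M), IsCyclic P) ∧ (Nat.card M).Coprime 30 := by
  classical
  obtain ⟨x, hx⟩ : ∃ x : S, x = φ.symm gx := ⟨_, rfl⟩
  obtain ⟨y, hy⟩ : ∃ y : S, y = φ.symm gy := ⟨_, rfl⟩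
  obtain ⟨z, hz⟩ : ∃ z : S, z = φ.symm gz := ⟨_, rfl⟩
  obtain ⟨w, hw⟩ : ∃ w : S, w = φ.symm gw := ⟨_, rfl⟩
  have hφx : φ x = gx := by rw [hx]; simp
  have hφy : φ y = gy := by rw [hy]; simp
  have hφz : φ z = gz := by rw [hz]; simp
  have hφw : φ w = gw := by rw [hw]; simp
  have hx3 : x ^ 3 = 1 := by apply φ.injective; rw [map_pow, hφx, gx3, map_one]
  have hx1 : x ≠ 1 := by intro h; rw [h, map_one] at hφx; exact gx1 hφx.symm
  have hy5 : y ^ 5 = 1 := by apply φ.injective; rw [map_pow, hφy, gy5, map_one]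
  have hy1 : y ≠ 1 := by intro h; rw [h, map_one] at hφy; exact gy1 hφy.symm
  have hxy : (x * y) ^ 2 = z := by
    apply φ.injective; rw [map_pow, map_mul, hφx, hφy, gxy, hφz]
  have hz1 : z ≠ 1 := by intro h; rw [h, map_one] at hφz; exact gz1 hφz.symm
  have hz2 : z ^ 2 = 1 := by apply φ.injective; rw [map_pow, hφz, gz2, map_one]
  have hw2 : ¬ w ^ 2 ^ 1 = 1 := by
    intro h
    have := congrArg φ h
    rw [map_pow, hφw, map_one, pow_one] at this
    exact gw2 this
  have hw4 : w ^ 2 ^ (1 + 1) = 1 := by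
    apply φ.injective; rw [map_pow, hφw, map_one]; exact gw4
  have oz : orderOf (z : G) = 2 := by
    rw [Subgroup.orderOf_coe]; exact orderOf_eq_prime hz2 hz1
  have ox : orderOf (x : G) = 3 := by
    rw [Subgroup.orderOf_coe]
    haveI : Fact (Nat.Prime 3) := ⟨by norm_num⟩
    exact orderOf_eq_prime hx3 hx1
  have oy : orderOf (y : G) = 5 := by
    rw [Subgroup.orderOf_coe]
    haveI : Fact (Nat.Prime 5) := ⟨by norm_num⟩
    exact orderOf_eq_prime hy5 hy1
  have ow : orderOf (w : G) = 4 := by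
    rw [Subgroup.orderOf_coe]
    have := orderOf_eq_prime_pow (p := 2) (n := 1) hw2 hw4
    simpa using this
  have hzc : ∀ g : G, g * z * g⁻¹ = z := by
    intro g
    apply hinv _ _ _ oz
    have : g * z * g⁻¹ = MulAut.conj g (z : G) := by simp
    rw [this, MulEquiv.orderOf_eq]
    exact oz
  let C : Subgroup G := Subgroup.centralizer (S : Set G)
  have hCn : C.Normal := Subgroup.normal_centralizer
  have hzC : (z : G) ∈ C := by
    rw [Subgroup.mem_centralizer_iff]
    intro h _
    have := hzc h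
    calc h * z = (h * z * h⁻¹) * h := by group
      _ = z * h := by rw [this]
  have hgenS : Subgroup.closure ({(x : G), (y : G)} : Set G) = S := by
    have h1 : Subgroup.closure ({x, y} : Set S) = ⊤ := by
      have h0 := congrArg (Subgroup.map φ.symm.toMonoidHom) gen
      rw [MonoidHom.map_closure, Set.image_pair] at h0
      rw [Subgroup.map_top_of_surjective _ φ.symm.surjective] at h0
      simpa [hx, hy] using h0
    have h2 := congrArg (Subgroup.map S.subtype) h1
    rw [MonoidHom.map_closure, Set.image_pair, ← MonoidHom.range_eq_map, Subgroup.range_subtype] at h2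
    exact h2
  have key2 : ∀ a : G, a * x = x * a → a * y = y * a → a ∈ C := by
    intro a hax hay
    have hle : S ≤ Subgroup.centralizer {a} := by
      rw [← hgenS, Subgroup.closure_le]
      intro t ht
      simp only [Set.mem_insert_iff, Set.mem_singleton_iff] at ht
      rw [SetLike.mem_coe, Subgroup.mem_centralizer_iff]
      intro b hb
      rw [Set.mem_singleton_iff] at hb
      subst hb
      rcases ht with rfl | rfl
      · exact hax
      · exact hay
    rw [Subgroup.mem_centralizer_iff]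
    intro s hs
    have := hle hs
    rw [Subgroup.mem_centralizer_iff] at this
    exact (this a rfl).symm
  have hSC : ∀ g : G, g ∈ S → g ∈ C → g = 1 ∨ g = (z : G) := by
    intro g hgS hgC
    rw [Subgroup.mem_centralizer_iff] at hgC
    have h1 := hgC x x.2
    have h2 := hgC y y.2
    have h1' : (⟨g, hgS⟩ : S) * x = x * ⟨g, hgS⟩ := Subtype.ext h1.symm
    have h2' : (⟨g, hgS⟩ : S) * y = y * ⟨g, hgS⟩ := Subtype.ext h2.symm
    have e1 := congrArg φ h1'
    have e2 := congrArg φ h2'
    rw [map_mul, map_mul, hφx] at e1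
    rw [map_mul, map_mul, hφy] at e2
    rcases lemC _ e1 e2 with h | h
    · left
      have : (⟨g, hgS⟩ : S) = 1 := φ.injective (by rw [h, map_one])
      exact congrArg Subtype.val this
    · right
      have : (⟨g, hgS⟩ : S) = z := φ.injective (by rw [h, hφz])
      exact congrArg Subtype.val this
  let Cx : Subgroup G := Subgroup.centralizer {(x : G)}
  have hCCx : C ≤ Cx := Subgroup.centralizer_le (by simp)
  have st1 : Cx.index ≤ 20 := by
    refine (index_le_of_inj Cx
      (fun g => ent (φ ⟨g * x * g⁻¹, hSn.conj_mem _ x.2 g⟩)) T20 ?_ ?_).trans T20_card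
    · intro g
      apply lemA
      · rw [← map_pow]
        have : (⟨g * x * g⁻¹, hSn.conj_mem _ x.2 g⟩ : S) ^ 3 = 1 := by
          apply Subtype.ext
          rw [Subgroup.coe_pow, Subgroup.coe_one, conj_pow, ← Subgroup.coe_pow, hx3]
          simp
        rw [this, map_one]
      · intro h
        have h1 : (⟨g * x * g⁻¹, hSn.conj_mem _ x.2 g⟩ : S) = 1 :=
          φ.injective (by rw [h, map_one])
        have h2 : g * x * g⁻¹ = 1 := congrArg Subtype.val h1
        apply hx1
        apply Subtype.ext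
        have : (x : G) = g⁻¹ * (g * x * g⁻¹) * g := by group
        rw [this, h2]
        simp
    · intro g g' h
      have h1 := φ.injective (ent_inj h)
      have h2 : g * x * g⁻¹ = g' * x * g'⁻¹ := congrArg Subtype.val h1
      rw [Subgroup.mem_centralizer_iff]
      intro b hb
      rw [Set.mem_singleton_iff] at hb
      subst hb
      calc (x : G) * (g⁻¹ * g') = g⁻¹ * (g * x * g⁻¹) * g' := by group
        _ = g⁻¹ * (g' * x * g'⁻¹) * g' := by rw [h2]
        _ = g⁻¹ * g' * x := by group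
  have st2 : (C.subgroupOf Cx).index ≤ 6 := by
    have hmemS : ∀ a : Cx, (a : G) * y * (a : G)⁻¹ ∈ S := fun a => hSn.conj_mem _ y.2 _
    have hcomm : ∀ a : Cx, (a : G) * x = x * a := by
      intro a
      have := a.2
      rw [Subgroup.mem_centralizer_iff] at this
      exact (this x rfl).symm
    refine (index_le_of_inj (C.subgroupOf Cx)
      (fun a : Cx => ent (φ ⟨(a : G) * y * (a : G)⁻¹, hmemS a⟩)) T6 ?_ ?_).trans T6_card
    · intro a
      apply lemB
      · rw [← map_pow]
        have : (⟨(a : G) * y * (a : G)⁻¹, hmemS a⟩ : S) ^ 5 = 1 := by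
          apply Subtype.ext
          rw [Subgroup.coe_pow, Subgroup.coe_one, conj_pow, ← Subgroup.coe_pow, hy5]
          simp
        rw [this, map_one]
      · rw [← hφx, ← map_mul, ← map_pow, ← hφz]
        congr 1
        apply Subtype.ext
        rw [Subgroup.coe_pow, Subgroup.coe_mul]
        show ((x : G) * ((a : G) * y * (a : G)⁻¹)) ^ 2 = z
        have e1 : (x : G) * ((a : G) * y * (a : G)⁻¹) = (a : G) * (x * y) * (a : G)⁻¹ := by
          calc (x : G) * ((a : G) * y * (a : G)⁻¹) = ((x : G) * a) * y * (a : G)⁻¹ := by group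
            _ = ((a : G) * x) * y * (a : G)⁻¹ := by rw [hcomm a]
            _ = _ := by group
        rw [e1, conj_pow]
        have hxy' : ((x : G) * y) ^ 2 = z := by
          have := congrArg Subtype.val hxy
          simpa using this
        rw [hxy']
        exact hzc a
    · intro a a' h
      have h1 := φ.injective (ent_inj h)
      have h2 : (a : G) * y * (a : G)⁻¹ = (a' : G) * y * (a' : G)⁻¹ := congrArg Subtype.val h1
      rw [Subgroup.mem_subgroupOf]
      apply key2
      · exact hcomm (a⁻¹ * a')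
      · rw [Subgroup.coe_mul, Subgroup.coe_inv]
        calc (a : G)⁻¹ * a' * y = (a : G)⁻¹ * ((a' : G) * y * (a' : G)⁻¹) * a' := by group
          _ = (a : G)⁻¹ * ((a : G) * y * (a : G)⁻¹) * a' := by rw [h2]
          _ = y * ((a : G)⁻¹ * a') := by group
  have hidxC : C.index ≤ 120 := by
    have h := Subgroup.relIndex_mul_index hCCx
    rw [← h]
    have h6 : C.relIndex Cx ≤ 6 := st2
    calc C.relIndex Cx * Cx.index ≤ 6 * 20 := Nat.mul_le_mul h6 st1
      _ = 120 := rfl
  have hcardS : Nat.card S = 120 := by rw [Nat.card_congr φ.toEquiv]; exact card_SL25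
  have hcardZ : Nat.card (C.subgroupOf S) ≤ 2 := by
    have hsub : ((C.subgroupOf S : Subgroup S) : Set S) ⊆ ({1, z} : Set S) := by
      intro g hg
      have hg' : (g : G) ∈ C := Subgroup.mem_subgroupOf.mp hg
      rcases hSC g g.2 hg' with h | h
      · left; exact Subtype.ext h
      · right; exact Subtype.ext h
    calc Nat.card (C.subgroupOf S) = ((C.subgroupOf S : Subgroup S) : Set S).ncard := by
          rw [← Nat.card_coe_set_eq]; rfl
      _ ≤ ({1, z} : Set S).ncard := Set.ncard_le_ncard hsub (Set.toFinite _)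
      _ ≤ 2 := (Set.ncard_insert_le _ _).trans (by rw [Set.ncard_singleton])
  have hrel : 60 ≤ C.relIndex S := by
    have h := Subgroup.index_mul_card (C.subgroupOf S)
    rw [hcardS] at h
    have : C.relIndex S = (C.subgroupOf S).index := rfl
    rw [this]
    nlinarith
  let G₀ : Subgroup G := S ⊔ C
  have hG₀n : G₀.Normal := Subgroup.sup_normal S C
  have hidx : G₀.index = 1 ∨ G₀.index = 2 := by
    have h1 := Subgroup.relIndex_mul_index (show C ≤ G₀ from le_sup_right)
    have h2 : C.relIndex G₀ = C.relIndex S := Subgroup.relIndex_sup_right S C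
    rw [h2] at h1
    have h3 : G₀.index ≠ 0 := Subgroup.index_ne_zero_of_finite
    have h4 : 60 * G₀.index ≤ 120 := by
      calc 60 * G₀.index ≤ C.relIndex S * G₀.index := Nat.mul_le_mul_right _ hrel
        _ = C.index := h1
        _ ≤ 120 := hidxC
    omega
  -- elements of C have order ≠ 3, 4, 5
  have hord : ∀ c ∈ C, ∀ s : S, orderOf c = orderOf (s : G) → c = 1 ∨ c = (z : G) := by
    intro c hc s ho
    have hcs : c * s = s * c := by
      rw [Subgroup.mem_centralizer_iff] at hc
      exact (hc s s.2).symm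
    have hmem := mem_of_orderOf_eq hab c s hcs ho
    have hcS : c ∈ S := (Subgroup.zpowers_le.mpr s.2) hmem
    exact hSC c hcS hc
  have ord1 : orderOf (1 : G) = 1 := orderOf_one
  have hno : ∀ c ∈ C, orderOf c ≠ 3 ∧ orderOf c ≠ 4 ∧ orderOf c ≠ 5 := by
    intro c hc
    refine ⟨?_, ?_, ?_⟩
    · intro h
      rcases hord c hc x (h.trans ox.symm) with h1 | h1
      · rw [h1, ord1] at h; omega
      · rw [h1, oz] at h; omega
    · intro h
      rcases hord c hc w (h.trans ow.symm) with h1 | h1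
      · rw [h1, ord1] at h; omega
      · rw [h1, oz] at h; omega
    · intro h
      rcases hord c hc y (h.trans oy.symm) with h1 | h1
      · rw [h1, ord1] at h; omega
      · rw [h1, oz] at h; omega
  have hC3 : ¬ 3 ∣ Nat.card C := by
    intro hd
    haveI : Fact (Nat.Prime 3) := ⟨by norm_num⟩
    obtain ⟨c, hc⟩ := exists_prime_orderOf_dvd_card' (G := C) 3 hd
    exact (hno c c.2).1 (by rw [Subgroup.orderOf_coe]; exact hc)
  have hC5 : ¬ 5 ∣ Nat.card C := by
    intro hd
    haveI : Fact (Nat.Prime 5) := ⟨by norm_num⟩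
    obtain ⟨c, hc⟩ := exists_prime_orderOf_dvd_card' (G := C) 5 hd
    exact (hno c c.2).2.2 (by rw [Subgroup.orderOf_coe]; exact hc)
  let zC : C := ⟨z, hzC⟩
  have ozC : orderOf zC = 2 := by
    rw [← Subgroup.orderOf_coe]; exact oz
  have hC4 : ¬ 4 ∣ Nat.card C := by
    intro hd
    haveI : Fact (Nat.Prime 2) := ⟨by norm_num⟩
    obtain ⟨U, hU⟩ := Sylow.exists_subgroup_card_pow_prime (G := C) 2 (n := 2) (by simpa using hd)
    have hUle : U ≤ Subgroup.zpowers zC := by
      intro u hu
      have ho : orderOf (⟨u, hu⟩ : U) ∣ 2 ^ 2 := by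
        rw [← hU]; exact orderOf_dvd_natCard _
      have ho' : orderOf (u : G) ∣ 4 := by
        rw [Subgroup.orderOf_coe, ← Subgroup.orderOf_mk u hu]
        simpa using ho
      have h4 := (hno u u.2).2.1
      have hcases : orderOf (u : G) = 1 ∨ orderOf (u : G) = 2 := by
        have hle : orderOf (u : G) ≤ 4 := Nat.le_of_dvd (by norm_num) ho'
        have hpos : 0 < orderOf (u : G) := orderOf_pos _
        interval_cases h : orderOf (u : G)
        · left; rfl
        · right; rfl
        · exfalso; norm_num at ho'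
        · exact absurd rfl h4
      rcases hcases with h1 | h2
      · have : u = 1 := by
          apply Subtype.ext
          exact orderOf_eq_one_iff.mp h1
        rw [this]; exact Subgroup.one_mem _
      · have : u = zC := by
          apply Subtype.ext
          exact hinv _ _ h2 oz
        rw [this]; exact Subgroup.mem_zpowers _
    have hle := Subgroup.card_le_of_le hUle
    rw [hU, Nat.card_zpowers, ozC] at hle
    norm_num at hle
  -- the complement M
  let N : Subgroup C := Subgroup.zpowers zC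
  have hNn : N.Normal := by
    refine ⟨fun n hn g => ?_⟩
    obtain ⟨k, rfl⟩ := Subgroup.mem_zpowers_iff.mp hn
    have : g * zC ^ k * g⁻¹ = zC ^ k := by
      have hz' : g * zC * g⁻¹ = zC := Subtype.ext (hzc g)
      rw [← conj_zpow, hz']
    rw [this]
    exact Subgroup.zpow_mem _ (Subgroup.mem_zpowers _) k
  have hNcard : Nat.card N = 2 := by rw [Nat.card_zpowers]; exact ozC
  have hNidx : Nat.card N * N.index = Nat.card C := Subgroup.card_mul_index N
  have hcop : Nat.Coprime (Nat.card N) N.index := by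
    rw [hNcard] at hNidx ⊢
    rw [Nat.coprime_two_left]
    rw [Nat.odd_iff]
    by_contra hodd
    apply hC4
    rw [← hNidx]
    omega
  obtain ⟨M₀, hM₀⟩ := Subgroup.exists_right_complement'_of_coprime hcop
  have hM₀card : 2 * Nat.card M₀ = Nat.card C := by
    have := hM₀.card_mul_card
    rw [← hNcard]
    exact this
  let M : Subgroup G := M₀.map C.subtype
  have hMC : M ≤ C := Subgroup.map_subtype_le M₀
  have hMcard : Nat.card M = Nat.card M₀ :=
    Subgroup.card_map_of_injective C.subtype_injective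
  have hzM : (z : G) ∉ M := by
    intro hzM
    obtain ⟨m, hm, hmz⟩ := hzM
    have hmz' : m = zC := Subtype.ext hmz
    have hmem : zC ∈ N ⊓ M₀ := ⟨Subgroup.mem_zpowers _, hmz' ▸ hm⟩
    rw [hM₀.disjoint.eq_bot, Subgroup.mem_bot] at hmem
    have : (z : G) = 1 := congrArg Subtype.val hmem
    exact hz1 (Subtype.ext this)
  refine ⟨G₀, hG₀n, hidx, S, M, ?_, ?_, ?_, ⟨φ⟩, ?_, ?_⟩
  · apply le_antisymm
    · exact sup_le_sup_left hMC S
    · refine sup_le le_sup_left ?_
      intro c hc
      have htop : N ⊔ M₀ = ⊤ := hM₀.sup_eq_top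
      have hmap := congrArg (Subgroup.map C.subtype) htop
      rw [Subgroup.map_sup, ← MonoidHom.range_eq_map, Subgroup.range_subtype] at hmap
      have hc' : c ∈ Subgroup.map C.subtype N ⊔ M := by rw [hmap]; exact hc
      have hNS : Subgroup.map C.subtype N ≤ S := by
        rintro _ ⟨n, hn, rfl⟩
        obtain ⟨k, rfl⟩ := Subgroup.mem_zpowers_iff.mp hn
        simp only [Subgroup.coe_subtype, Subgroup.coe_zpow]
        exact Subgroup.zpow_mem _ z.2 k
      exact (sup_le_sup_right hNS M) hc'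
  · rw [eq_bot_iff]
    intro g hg
    rw [Subgroup.mem_bot]
    rcases hSC g hg.1 (hMC hg.2) with h | h
    · exact h
    · exact absurd (h ▸ hg.2) hzM
  · intro s hs m hm
    have := hMC hm
    rw [Subgroup.mem_centralizer_iff] at this
    exact this s hs
  · intro p hp P
    have hΓM : ∀ B : Subgroup M, IsMulCommutative B → IsCyclic B := by
      intro B hB
      have hB' : IsMulCommutative (B.map M.subtype) := inferInstance
      have hcyc := hab (B.map M.subtype) hB'
      exact isCyclic_of_surjective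
        ((Subgroup.equivMapOfInjective B M.subtype M.subtype_injective).symm)
        (MulEquiv.surjective _)
    have huniq := Cfsg.Agent.S0040.unique_of_abelian_cyclic hΓM p (P : Subgroup M) P.2
    rcases Cfsg.Agent.S0016.result (G := (P : Subgroup M)) p P.2 huniq with h | ⟨h2, -⟩
    · exact h
    · subst h2
      have hodd : ¬ 2 ∣ Nat.card M := by
        intro hd
        apply hC4
        rw [← hM₀card, ← hMcard]
        omega
      have hPcard : Nat.card (P : Subgroup M) = 1 := by
        obtain ⟨k, hk⟩ := (IsPGroup.iff_card.mp P.2)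
        have hdvd : Nat.card (P : Subgroup M) ∣ Nat.card M := Subgroup.card_subgroup_dvd_card _
        rcases Nat.eq_zero_or_pos k with rfl | hkpos
        · simpa using hk
        · exfalso
          apply hodd
          refine dvd_trans ?_ hdvd
          rw [hk]
          exact dvd_pow_self 2 (by omega)
      haveI : Subsingleton (P : Subgroup M) := (Nat.card_eq_one_iff_unique.mp hPcard).1
      exact isCyclic_of_subsingleton
  · have h2 : ¬ 2 ∣ Nat.card M := by
      intro hd
      apply hC4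
      rw [← hM₀card, ← hMcard]
      omega
    have hdvd : Nat.card M ∣ Nat.card C := Subgroup.card_dvd_of_le hMC
    have h3 : ¬ 3 ∣ Nat.card M := fun h => hC3 (h.trans hdvd)
    have h5 : ¬ 5 ∣ Nat.card M := fun h => hC5 (h.trans hdvd)
    have e : (30 : ℕ) = 2 * 3 * 5 := rfl
    rw [e]
    apply Nat.Coprime.mul_right
    · apply Nat.Coprime.mul_right
      · exact (Nat.coprime_comm.mp ((Nat.Prime.coprime_iff_not_dvd (by norm_num)).mpr h2))
      · exact (Nat.coprime_comm.mp ((Nat.Prime.coprime_iff_not_dvd (by norm_num)).mpr h3))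
    · exact (Nat.coprime_comm.mp ((Nat.Prime.coprime_iff_not_dvd (by norm_num)).mpr h5))


theorem main {G : Type*} [Group G] [Finite G]
    (hZ : ∀ (K : Type) [Group K] [Finite K] (Γ : Subgroup (MulAut K)),
      (∀ φ ∈ Γ, φ ≠ 1 → ∀ k : K, φ k = k → k = 1) → commutator Γ = ⊤ → Γ ≠ ⊥ →
      Nonempty (Γ ≃* Matrix.SpecialLinearGroup (Fin 2) (ZMod 5)))
    (hns : ¬ Group.IsSolvable G)
    (hFC : ∃ (L : Type) (_ : Group L) (_ : Finite L) (H : Subgroup L),
      Cfsg.IsFrobeniusComplement H ∧ Nonempty (G ≃* H)) :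
    ∃ G₀ : Subgroup G, G₀.Normal ∧ (G₀.index = 1 ∨ G₀.index = 2) ∧
      ∃ S M : Subgroup G, S ⊔ M = G₀ ∧ S ⊓ M = ⊥ ∧ (∀ s ∈ S, ∀ x ∈ M, s * x = x * s) ∧
        Nonempty (S ≃* Matrix.SpecialLinearGroup (Fin 2) (ZMod 5)) ∧
        (∀ (p : ℕ) [Fact p.Prime] (P : Sylow p M), IsCyclic P) ∧ (Nat.card M).Coprime 30 := by
  classical
  obtain ⟨L, _, _, H, hH, ⟨e⟩⟩ := hFC
  obtain ⟨K, hKset, hKn, hc⟩ := Cfsg.Agent.S0035.result H hH
  have hHbot : H ≠ ⊥ := hH.1
  have hHtop : H ≠ ⊤ := hH.2.1
  have hKbot : K ≠ ⊥ := by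
    intro h
    apply hHtop
    have := hc.sup_eq_top
    rw [h, bot_sup_eq] at this
    exact this
  have hfpf := (Cfsg.Agent.S0039.result K H hc hKbot hHbot).mp hH
  let ι : G →* L := H.subtype.comp e.toMonoidHom
  have hι : Function.Injective ι := H.subtype_injective.comp e.injective
  have hιH : ∀ g, ι g ∈ H := fun g => (e g).2
  have hab : ∀ A : Subgroup G, IsMulCommutative A → IsCyclic A := by
    intro A hA
    have hA' : IsMulCommutative (A.map ι) := inferInstance
    have hcyc := Cfsg.Agent.S0040.isCyclic_of_fpf K H hKbot hfpf (A.map ι)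
      (by rintro _ ⟨a, -, rfl⟩; exact hιH a)
    exact isCyclic_of_surjective ((Subgroup.equivMapOfInjective A ι hι).symm)
      (MulEquiv.surjective _)
  let Ψ : G →* MulAut K := (MulAut.conjNormal (H := K)).comp ι
  have hΨ : ∀ g : G, g ≠ 1 → ∀ k : K, Ψ g k = k → k = 1 := by
    intro g hg k hk
    have h1 : ι g ≠ 1 := fun h => hg (hι (by rw [h, map_one]))
    have h2 := hfpf (ι g) (hιH g) h1
    have h3 : (k : L) ∈ K ⊓ Subgroup.centralizer {ι g} := by
      refine ⟨k.2, ?_⟩
      show (k : L) ∈ Subgroup.centralizer {ι g}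
      rw [Subgroup.mem_centralizer_iff]
      intro b hb
      rw [Set.mem_singleton_iff] at hb
      subst hb
      have h4 : ι g * k * (ι g)⁻¹ = k := congrArg Subtype.val hk
      calc ι g * k = (ι g * k * (ι g)⁻¹) * ι g := by group
        _ = k * ι g := by rw [h4]
    rw [h2, Subgroup.mem_bot] at h3
    exact Subtype.ext h3
  obtain ⟨k₀, hk₀⟩ : ∃ k₀ : K, k₀ ≠ 1 := by
    by_contra hcon
    push Not at hcon
    apply hKbot
    rw [eq_bot_iff]
    intro k hk
    rw [Subgroup.mem_bot]
    exact congrArg Subtype.val (hcon ⟨k, hk⟩)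
  have hΨinj : Function.Injective Ψ := by
    rw [injective_iff_map_eq_one]
    intro g hg
    by_contra hg1
    apply hk₀
    apply hΨ g hg1 k₀
    rw [hg]
    rfl
  have hinv : ∀ s t : G, orderOf s = 2 → orderOf t = 2 → s = t := by
    intro s t hs ht
    have hs1 : s ≠ 1 := by
      intro h; rw [h, orderOf_one] at hs; omega
    have ht1 : t ≠ 1 := by
      intro h; rw [h, orderOf_one] at ht; omega
    have hs' : orderOf (Ψ s) = 2 := by rw [orderOf_injective Ψ hΨinj]; exact hs
    have ht' : orderOf (Ψ t) = 2 := by rw [orderOf_injective Ψ hΨinj]; exact ht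
    have h1 := ((Cfsg.Agent.S3375.result (Ψ s) hs').1 (hΨ s hs1)).2
    have h2 := ((Cfsg.Agent.S3375.result (Ψ t) ht').1 (hΨ t ht1)).2
    have h3 : s * t = 1 := by
      by_contra hst
      apply hk₀
      apply hΨ (s * t) hst k₀
      rw [map_mul]
      show Ψ s (Ψ t k₀) = k₀
      rw [h2, h1, inv_inv]
    have h4 : t * t = 1 := by
      have := pow_orderOf_eq_one t
      rw [ht, pow_two] at this
      exact this
    calc s = s * (t * t) := by rw [h4, mul_one]
      _ = (s * t) * t := by group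
      _ = t := by rw [h3, one_mul]
  -- the perfect residual
  obtain ⟨D, ⟨n, rfl⟩, hmin⟩ := WellFounded.has_min
    (wellFounded_lt : WellFounded ((· < ·) : Subgroup G → Subgroup G → Prop))
    (Set.range (derivedSeries G)) ⟨_, ⟨0, rfl⟩⟩
  have hDD : ⁅derivedSeries G n, derivedSeries G n⁆ = derivedSeries G n := by
    have h1 : derivedSeries G (n + 1) ≤ derivedSeries G n :=
      derivedSeries_antitone G (Nat.le_succ n)
    have h2 := hmin (derivedSeries G (n + 1)) ⟨n + 1, rfl⟩
    have h3 : derivedSeries G (n + 1) = derivedSeries G n := by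
      rcases lt_or_eq_of_le h1 with h | h
      · exact absurd h h2
      · exact h
    rw [derivedSeries_succ] at h3
    exact h3
  have hDbot : derivedSeries G n ≠ ⊥ := by
    intro h
    exact hns ((Group.isSolvable_def G).mpr ⟨n, h⟩)
  have hDn : (derivedSeries G n).Normal := derivedSeries_normal G n
  let D' : Subgroup (MulAut K) := (derivedSeries G n).map Ψ
  have hD'fpf : ∀ φ ∈ D', φ ≠ 1 → ∀ k : K, φ k = k → k = 1 := by
    rintro _ ⟨d, -, rfl⟩ hd k hk
    exact hΨ d (fun h => hd (by rw [h, map_one])) k hk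
  have hD'bot : D' ≠ ⊥ := by
    intro h
    exact hDbot ((Subgroup.map_eq_bot_iff_of_injective _ hΨinj).mp h)
  have hD'perf : commutator D' = ⊤ := by
    have h1 : ⁅D', D'⁆ = D' := by
      show ⁅(derivedSeries G n).map Ψ, (derivedSeries G n).map Ψ⁆ = (derivedSeries G n).map Ψ
      rw [← Subgroup.map_commutator, hDD]
    apply Subgroup.map_injective D'.subtype_injective
    rw [Subgroup.map_subtype_commutator, h1, ← MonoidHom.range_eq_map, Subgroup.range_subtype]
  obtain ⟨φ'⟩ := hZ K D' hD'fpf hD'perf hD'bot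
  let φ : (derivedSeries G n) ≃* SL25 :=
    (Subgroup.equivMapOfInjective (derivedSeries G n) Ψ hΨinj).trans φ'
  exact core hab hinv (derivedSeries G n) φ

end Cfsg.Agent.Lib.Helper63.FrobComp
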