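import Mathlib
import Cfsg.Agent.Lib.Helper18.LSDefs

/-!
S2333 piece LS-S0NZ (helper18): if `tr (S0 * M) ≠ 0` then the polar form `M + Mᵀ` is nonzero.
-/

set_option autoImplicit false

namespace Cfsg.Agent.Lib.Helper18.LS

open Matrix

universe u

variable {F : Type u} [Field F] {n : ℕ}

-- piece S0NZ
theorem S0_trace_ne (hn : 2 ≤ n) (M : Matrix (Fin n) (Fin n) F)
    (h : trace (S0 n F * M) ≠ 0) : M + Mᵀ ≠ 0 := by
  intro h0
  apply h
  obtain ⟨i0, hi0⟩ : ∃ i0 : Fin n, i0.val = 0 := ⟨⟨0, by omega⟩, rfl⟩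
  obtain ⟨i1, hi1⟩ : ∃ i1 : Fin n, i1.val = 1 := ⟨⟨1, by omega⟩, rfl⟩
  have hS : ∀ i j : Fin n, S0 n F i j =
      (if i = i0 then (if j = i1 then 1 else 0) else 0) +
        (if i = i1 then (if j = i0 then 1 else 0) else 0) := by
    intro i j
    unfold S0
    simp only [Fin.ext_iff, hi0, hi1]
    split_ifs <;> first | omega | simp
  have htr : trace (S0 n F * M) = M i1 i0 + M i0 i1 := by
    simp only [Matrix.trace, Matrix.diag_apply, Matrix.mul_apply, hS, add_mul, ite_mul, one_mul,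
      zero_mul, Finset.sum_add_distrib, Finset.sum_ite_eq', Finset.mem_univ,
      if_true, Finset.sum_ite_irrel, Finset.sum_const_zero]
  have h1 : (M + Mᵀ) i1 i0 = 0 := by rw [h0]; rfl
  rw [htr]
  simpa [Matrix.add_apply, Matrix.transpose_apply] using h1

end Cfsg.Agent.Lib.Helper18.LS
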