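import Mathlib
import Cfsg.Agent.S0713
import Cfsg.Agent.S0712
import Cfsg.Agent.S0675
import Cfsg.Agent.Lib.Helper26.TwoPrSOLV

set_option autoImplicit false

namespace Cfsg.Agent.Lib.Helper63.TwoPr

open Equiv Equiv.Perm MulAction

/-- TP-DICH with the solvable prime-degree piece (TP-SOLV) as a hypothesis. -/
theorem dichotomy_aux {Ω : Type*} [Fintype Ω] [DecidableEq Ω] (K : Subgroup (Perm Ω))
    (hK : IsPreprimitive K Ω) {c : Perm Ω} (hc : c ∈ K) (hcc : c.IsCycle)
    (hr : c.support.card.Prime) (hn : Fintype.card Ω = c.support.card + 2)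
    (hS : ∀ (L : Subgroup (Perm {x // x ∈ c.support})) [IsPretransitive L {x // x ∈ c.support}],
      (Fintype.card {x // x ∈ c.support}).Prime → Group.IsSolvable L →
      Nat.card L ∣ Fintype.card {x // x ∈ c.support} *
          (Fintype.card {x // x ∈ c.support} - 1) ∧
        ∀ g ∈ L, g ≠ 1 → ∀ a b : {x // x ∈ c.support}, g a = a → g b = b → a = b) :
    IsMultiplyPretransitive K Ω 4 ∨
      (Nat.card (Cfsg.Agent.S0713.fixG K c.supportᶜ) ∣ c.support.card * (c.support.card - 1) ∧
        ∀ g ∈ K, g ≠ 1 → (∀ x, x ∉ c.support → g x = x) →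
          ∀ x y, x ∈ c.support → y ∈ c.support → g x = x → g y = y → x = y) := by
  classical
  obtain ⟨φ, hφ⟩ : ∃ φ : Perm {x // x ∈ c.support} →* Perm Ω, φ = Perm.ofSubtype := ⟨_, rfl⟩
  obtain ⟨L, hL⟩ : ∃ L : Subgroup (Perm {x // x ∈ c.support}), L = K.comap φ := ⟨_, rfl⟩
  have hcardΓ : Fintype.card {x // x ∈ c.support} = c.support.card := Fintype.card_coe _
  have hfix : Cfsg.Agent.S0713.fixG K c.supportᶜ = L.map φ := by
    ext t
    rw [Cfsg.Agent.S0713.mem_fixG, Subgroup.mem_map]
    constructor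
    · rintro ⟨htK, ht⟩
      have h2 : ∀ x, t x ≠ x → x ∈ c.support := by
        intro x hx
        by_contra hxS
        exact hx (ht x (Finset.mem_compl.mpr hxS))
      have h1 : ∀ x, t x ∈ c.support ↔ x ∈ c.support := by
        intro x
        constructor
        · intro h
          by_contra hxS
          rw [ht x (Finset.mem_compl.mpr hxS)] at h
          exact hxS h
        · intro h
          by_contra htS
          have h3 := ht (t x) (Finset.mem_compl.mpr htS)
          have h4 : t x = x := t.injective h3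
          rw [h4] at htS
          exact htS h
      refine ⟨Perm.subtypePerm t h1, ?_, ?_⟩
      · rw [hL, Subgroup.mem_comap, hφ, Perm.ofSubtype_subtypePerm h1 h2]
        exact htK
      · rw [hφ]
        exact Perm.ofSubtype_subtypePerm h1 h2
    · rintro ⟨π, hπ, rfl⟩
      rw [hL, Subgroup.mem_comap] at hπ
      refine ⟨hπ, fun d hd => ?_⟩
      rw [hφ]
      exact Perm.ofSubtype_apply_of_not_mem π (Finset.mem_compl.mp hd)
  have hcardL : Nat.card (Cfsg.Agent.S0713.fixG K c.supportᶜ) = Nat.card L := by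
    rw [hfix]
    apply Subgroup.card_map_of_injective
    rw [hφ]
    exact Perm.ofSubtype_injective
  have hc1 : ∀ x, c x ∈ c.support ↔ x ∈ c.support := fun x => Perm.apply_mem_support
  have hc2 : ∀ x, c x ≠ x → x ∈ c.support := fun x hx => Perm.mem_support.mpr hx
  have hc'L : Perm.subtypePerm c hc1 ∈ L := by
    rw [hL, Subgroup.mem_comap, hφ, Perm.ofSubtype_subtypePerm hc1 hc2]
    exact hc
  have : IsPretransitive L {x // x ∈ c.support} := by
    refine ⟨fun x y => ?_⟩
    obtain ⟨i, hi⟩ := hcc.exists_pow_eq (Perm.mem_support.mp x.2) (Perm.mem_support.mp y.2)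
    refine ⟨⟨Perm.subtypePerm c hc1, hc'L⟩ ^ i, ?_⟩
    apply Subtype.ext
    show (((Perm.subtypePerm c hc1) ^ i) x : Ω) = y
    rw [Perm.subtypePerm_pow, Perm.subtypePerm_apply]
    exact hi
  rcases Cfsg.Agent.S0675.result (hcardΓ ▸ hr) L with hsolv | h2t
  · right
    obtain ⟨hdvd, hfp⟩ := hS L (by rw [hcardΓ]; exact hr) hsolv
    refine ⟨?_, ?_⟩
    · rw [hcardL]
      rwa [hcardΓ] at hdvd
    · intro g hgK hg1 hgfix x y hx hy hgx hgy
      have hgmem : g ∈ Cfsg.Agent.S0713.fixG K c.supportᶜ :=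
        (Cfsg.Agent.S0713.mem_fixG _ _ _).mpr
          ⟨hgK, fun d hd => hgfix d (Finset.mem_compl.mp hd)⟩
      rw [hfix, Subgroup.mem_map] at hgmem
      obtain ⟨π, hπ, rfl⟩ := hgmem
      have hπ1 : π ≠ 1 := by
        rintro rfl
        exact hg1 (map_one φ)
      have hxx : π ⟨x, hx⟩ = ⟨x, hx⟩ := by
        apply Subtype.ext
        rw [hφ, Perm.ofSubtype_apply_of_mem π hx] at hgx
        exact hgx
      have hyy : π ⟨y, hy⟩ = ⟨y, hy⟩ := by
        apply Subtype.ext
        rw [hφ, Perm.ofSubtype_apply_of_mem π hy] at hgy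
        exact hgy
      exact congrArg Subtype.val (hfp π hπ hπ1 _ _ hxx hyy)
  · left
    have hs : ((c.support : Set Ω)ᶜ).ncard = 2 := by
      rw [← Finset.coe_compl, Set.ncard_coe_finset, Finset.card_compl]
      omega
    have h2 : IsMultiplyPretransitive (fixingSubgroup K ((c.support : Set Ω)ᶜ))
        (SubMulAction.ofFixingSubgroup K ((c.support : Set Ω)ᶜ)) 2 := by
      rw [MulAction.is_two_pretransitive_iff]
      intro a b c' d hab hcd
      have hmem : ∀ z : SubMulAction.ofFixingSubgroup K ((c.support : Set Ω)ᶜ),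
          (z : Ω) ∈ c.support := by
        intro z
        have := z.2
        rw [SubMulAction.mem_ofFixingSubgroup_iff] at this
        simpa using this
      have h2t' : ∀ (a b c_1 d : {x // x ∈ c.support}), a ≠ b → c_1 ≠ d →
          ∃ g : L, g • a = c_1 ∧ g • b = d := fun a b c_1 d h1 h2 =>
        (MulAction.is_two_pretransitive_iff.mp h2t) h1 h2
      have hab' : (⟨a, hmem a⟩ : {x // x ∈ c.support}) ≠ ⟨b, hmem b⟩ := by
        intro h
        exact hab (Subtype.ext (Subtype.mk.inj h))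
      have hcd' : (⟨c', hmem c'⟩ : {x // x ∈ c.support}) ≠ ⟨d, hmem d⟩ := by
        intro h
        exact hcd (Subtype.ext (Subtype.mk.inj h))
      obtain ⟨π, hπ1, hπ2⟩ := h2t' _ _ _ _ hab' hcd'
      have hπK : φ π.1 ∈ K := by
        have h1 : π.1 ∈ K.comap φ := hL ▸ π.2
        exact Subgroup.mem_comap.mp h1
      refine ⟨⟨⟨φ π.1, hπK⟩, ?_⟩, ?_, ?_⟩
      · rw [mem_fixingSubgroup_iff]
        intro y hy
        show φ π.1 y = y
        rw [hφ]
        exact Perm.ofSubtype_apply_of_not_mem _ (by simpa using hy)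
      · apply Subtype.ext
        show φ π.1 (a : Ω) = (c' : Ω)
        rw [hφ, Perm.ofSubtype_apply_of_mem _ (hmem a)]
        exact congrArg Subtype.val hπ1
      · apply Subtype.ext
        show φ π.1 (b : Ω) = (d : Ω)
        rw [hφ, Perm.ofSubtype_apply_of_mem _ (hmem b)]
        exact congrArg Subtype.val hπ2
    have hr2 := hr.two_le
    exact Cfsg.Agent.S0712.result K hK _ hs (by omega) h2

/-- TP-DICH -/
theorem dichotomy {Ω : Type*} [Fintype Ω] [DecidableEq Ω] (K : Subgroup (Perm Ω))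
    (hK : IsPreprimitive K Ω) {c : Perm Ω} (hc : c ∈ K) (hcc : c.IsCycle)
    (hr : c.support.card.Prime) (hn : Fintype.card Ω = c.support.card + 2) :
    IsMultiplyPretransitive K Ω 4 ∨
      (Nat.card (Cfsg.Agent.S0713.fixG K c.supportᶜ) ∣ c.support.card * (c.support.card - 1) ∧
        ∀ g ∈ K, g ≠ 1 → (∀ x, x ∉ c.support → g x = x) →
          ∀ x y, x ∈ c.support → y ∈ c.support → g x = x → g y = y → x = y) :=
  dichotomy_aux K hK hc hcc hr hn
    (fun L _ hp hs => Cfsg.Agent.Lib.Helper26.TwoPr.solv_prime_degree L hp hs)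

end Cfsg.Agent.Lib.Helper63.TwoPr
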