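import Mathlib
import Cfsg.Agent.Lib.Helper16.ZFpf
import Cfsg.Agent.S0033
import Cfsg.Agent.S0106
import Cfsg.Agent.Lib.Helper63.FrobComp
set_option autoImplicit false
open Cfsg

namespace Cfsg.Agent.Lib.Helper63.ZasGlobal

open Cfsg.Agent.Lib.Helper16.Zas

universe u

section setup

open scoped IsMulCommutative

variable {K : Type u} [Group K]

/-- an automorphism restricted to the centre -/
def resCenter (φ : MulAut K) : Subgroup.center K →* Subgroup.center K :=
  (φ.toMonoidHom.comp (Subgroup.center K).subtype).codRestrict (Subgroup.center K) (by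
    intro k
    have h : (Subgroup.center K).comap φ.symm.toMonoidHom = Subgroup.center K :=
      Subgroup.characteristic_iff_comap_eq.mp inferInstance φ.symm
    have hk : (φ (k : K)) ∈ (Subgroup.center K).comap φ.symm.toMonoidHom := by
      rw [Subgroup.mem_comap]
      show φ.symm (φ (k : K)) ∈ Subgroup.center K
      rw [MulEquiv.symm_apply_apply]
      exact k.2
    rw [h] at hk
    exact hk)

theorem resCenter_apply (φ : MulAut K) (k : Subgroup.center K) :
    ((resCenter φ k : Subgroup.center K) : K) = φ (k : K) := rfl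

/-- the action on the centre, written additively, as a ring representation -/
def rhoC (G : Subgroup (MulAut K)) : G →* AddMonoid.End (Additive (Subgroup.center K)) where
  toFun g := MonoidHom.toAdditive (resCenter (g : MulAut K))
  map_one' := by
    ext v
    rfl
  map_mul' a b := by
    ext v
    rfl

theorem rhoC_apply (G : Subgroup (MulAut K)) (g : G) (v : Additive (Subgroup.center K)) :
    ((Additive.toMul (rhoC G g v) : Subgroup.center K) : K) =
      (g : MulAut K) ((Additive.toMul v : Subgroup.center K) : K) := rfl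

theorem exists_fpf [Finite K] (G : Subgroup (MulAut K))
    (hfpf : ∀ φ ∈ G, φ ≠ 1 → ∀ k : K, φ k = k → k = 1) (hne : G ≠ ⊥) :
    Fpf (R := AddMonoid.End (Additive (Subgroup.center K))) (rhoC G) := by
  classical
  have hfinA : Finite (MulAut K) := by
    have : Function.Injective (fun φ : MulAut K => (φ : K → K)) := by
      intro a b hab
      exact DFunLike.coe_injective hab
    exact Finite.of_injective _ this
  have hGnt : Nontrivial G := (Subgroup.nontrivial_iff_ne_bot G).mpr hne
  have hcard : Nat.card G ≠ 1 := by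
    intro h
    have := (Nat.card_eq_one_iff_unique.mp h).1
    exact not_subsingleton G this
  obtain ⟨p, hp, hpd⟩ := Nat.exists_prime_and_dvd hcard
  haveI := Fact.mk hp
  obtain ⟨g, hg⟩ := exists_prime_orderOf_dvd_card' (G := G) p hpd
  have hg1 : g ≠ 1 := by
    intro h
    rw [h, orderOf_one] at hg
    exact hp.one_lt.ne hg
  have hφ1 : (g : MulAut K) ≠ 1 := fun h => hg1 (Subtype.ext h)
  have hord : orderOf (g : MulAut K) = p := by rw [Subgroup.orderOf_coe]; exact hg
  have hnil : Group.IsNilpotent K := by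
    refine Cfsg.Agent.S0033.result (g : MulAut K) ?_ p hp hord
    intro k hk
    exact hfpf _ g.2 hφ1 k hk
  have hKnt : Nontrivial K := by
    by_contra hcon
    rw [not_nontrivial_iff_subsingleton] at hcon
    apply hφ1
    ext k
    exact Subsingleton.elim _ _
  have hZ : Subgroup.center K ≠ ⊥ := Group.IsNilpotent.center_ne_bot K
  obtain ⟨c, hc1⟩ := (Subgroup.ne_bot_iff_exists_ne_one).mp hZ
  refine ⟨?_, ?_⟩
  · intro h10
    have h1 := congrArg (fun f : AddMonoid.End (Additive (Subgroup.center K)) =>
      f (Additive.ofMul c)) h10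
    apply hc1
    have h2 : Additive.ofMul c = (0 : Additive (Subgroup.center K)) := h1
    exact h2
  · intro x hx
    have hx1 : (x : MulAut K) ≠ 1 := fun h => hx (Subtype.ext h)
    have hinj : Function.Injective (rhoC G x - 1 : AddMonoid.End (Additive (Subgroup.center K))) := by
      rw [injective_iff_map_eq_zero]
      intro v hv
      have h1 : rhoC G x v - v = 0 := hv
      have h2 : rhoC G x v = v := sub_eq_zero.mp h1
      have h3 : (x : MulAut K) ((Additive.toMul v : Subgroup.center K) : K) =
          ((Additive.toMul v : Subgroup.center K) : K) := by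
        rw [← rhoC_apply, h2]
      have h4 := hfpf _ x.2 hx1 _ h3
      have h5 : (Additive.toMul v : Subgroup.center K) = 1 := Subtype.ext h4
      exact h5
    have hbij : Function.Bijective (rhoC G x - 1 : AddMonoid.End (Additive (Subgroup.center K))) :=
      hinj.bijective_of_finite
    let e : Additive (Subgroup.center K) ≃+ Additive (Subgroup.center K) :=
      AddEquiv.ofBijective (rhoC G x - 1 : AddMonoid.End (Additive (Subgroup.center K))) hbij
    refine ⟨⟨rhoC G x - 1, e.symm.toAddMonoidHom, ?_, ?_⟩, rfl⟩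
    · exact DFunLike.ext _ _ (fun v => e.apply_symm_apply v)
    · exact DFunLike.ext _ _ (fun v => e.symm_apply_apply v)

end setup


section quat

open QuaternionGroup

theorem quat_normal_index {m : ℕ} [NeZero m] (U : Subgroup (QuaternionGroup m)) [hUn : U.Normal]
    (hU : ∃ x ∈ U, ∃ y ∈ U, x * y ≠ y * x) : U.index ≤ 2 := by
  classical
  obtain ⟨i, hi⟩ : ∃ i : ZMod (2 * m), xa i ∈ U := by
    obtain ⟨x, hx, y, hy, hxy⟩ := hU
    rcases x with k | k
    · rcases y with l | l
      · exfalso
        apply hxy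
        rw [a_mul_a, a_mul_a, add_comm]
      · exact ⟨l, hy⟩
    · exact ⟨k, hx⟩
  have hw : xa (i - 2) ∈ U := by
    have h1 := hUn.conj_mem _ hi (a 1)
    have h2 : a 1 * xa i * (a 1 : QuaternionGroup m)⁻¹ = xa (i - 2) := by
      rw [mul_inv_eq_iff_eq_mul, a_mul_xa, xa_mul_a]
      congr 1
      ring
    rw [h2] at h1
    exact h1
  have ha2 : (a 2 : QuaternionGroup m) ∈ U := by
    have h1 : (a (m : ZMod (2 * m)) : QuaternionGroup m) ∈ U := by
      have := U.mul_mem hi hi
      rw [xa_mul_xa] at this
      have e : (m : ZMod (2 * m)) + i - i = m := by ring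
      rw [e] at this
      exact this
    have h2 : (a ((m : ZMod (2 * m)) + 2) : QuaternionGroup m) ∈ U := by
      have := U.mul_mem hw hi
      rw [xa_mul_xa] at this
      have e : (m : ZMod (2 * m)) + i - (i - 2) = m + 2 := by ring
      rw [e] at this
      exact this
    have h3 := U.mul_mem h1 h2
    rw [a_mul_a] at h3
    have e : (m : ZMod (2 * m)) + (m + 2) = 2 := by
      have h0 : ((2 * m : ℕ) : ZMod (2 * m)) = 0 := ZMod.natCast_self (2 * m)
      have h0' : (m : ZMod (2 * m)) + m = 0 := by
        rw [← h0]; push_cast; ring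
      calc (m : ZMod (2 * m)) + (m + 2) = ((m : ZMod (2 * m)) + m) + 2 := by ring
        _ = 2 := by rw [h0', zero_add]
    rw [e] at h3
    exact h3
  have hpow : ∀ j : ℕ, (a 1 : QuaternionGroup m) ^ (2 * j) ∈ U := by
    intro j
    rw [pow_mul]
    apply U.pow_mem
    rw [a_one_pow]
    exact_mod_cast ha2
  have keyA : ∀ k : ZMod (2 * m), (a k : QuaternionGroup m) ∈ U ∨
      (a 1 : QuaternionGroup m)⁻¹ * a k ∈ U := by
    intro k
    have hk : (a k : QuaternionGroup m) = (a 1) ^ k.val := by
      rw [a_one_pow, ZMod.natCast_zmod_val]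
    rcases Nat.even_or_odd' k.val with ⟨j, hj | hj⟩
    · left
      rw [hk, hj]
      exact hpow j
    · right
      rw [hk, hj, pow_succ']
      rw [inv_mul_cancel_left]
      exact hpow j
  have key : ∀ g : QuaternionGroup m, g ∈ U ∨ (a 1 : QuaternionGroup m)⁻¹ * g ∈ U := by
    intro g
    rcases g with k | k
    · exact keyA k
    · have hk : (xa k : QuaternionGroup m) = xa i * a (k - i) := by
        rw [xa_mul_a]
        congr 1
        ring
      rcases keyA (k - i) with h1 | h1
      · left
        rw [hk]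
        exact U.mul_mem hi h1
      · right
        have h2 := hUn.conj_mem _ hi (a 1 : QuaternionGroup m)⁻¹
        rw [inv_inv] at h2
        have h3 := U.mul_mem h2 h1
        have e : (a 1 : QuaternionGroup m)⁻¹ * xa i * a 1 * ((a 1)⁻¹ * a (k - i)) =
            (a 1)⁻¹ * (xa i * a (k - i)) := by group
        rw [e, ← hk] at h3
        exact h3
  have hle := Cfsg.Agent.Lib.Helper63.FrobComp.index_le_of_inj U
    (fun g : QuaternionGroup m => decide (g ∈ U)) (Finset.univ : Finset Bool)
    (fun g => Finset.mem_univ _) (by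
      intro g g' hgg'
      by_cases hg : g ∈ U
      · have hg' : g' ∈ U := by
          have : decide (g ∈ U) = decide (g' ∈ U) := hgg'
          simpa [hg] using this
        exact U.mul_mem (U.inv_mem hg) hg'
      · have hg' : g' ∉ U := by
          have : decide (g ∈ U) = decide (g' ∈ U) := hgg'
          intro h'
          simp [hg, h'] at this
        have h1 := (key g).resolve_left hg
        have h2 := (key g').resolve_left hg'
        have h3 := U.mul_mem (U.inv_mem h1) h2
        have e : ((a 1 : QuaternionGroup m)⁻¹ * g)⁻¹ * ((a 1)⁻¹ * g') = g⁻¹ * g' := by group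
        rw [e] at h3
        exact h3)
  simpa using hle

theorem quat_iso_index {S : Type*} [Group S] {m : ℕ} [NeZero m] (e : S ≃* QuaternionGroup m)
    (U : Subgroup S) [U.Normal] (hU : ∃ x ∈ U, ∃ y ∈ U, x * y ≠ y * x) : U.index ≤ 2 := by
  obtain ⟨x, hx, y, hy, hxy⟩ := hU
  have h := quat_normal_index (U.comap e.symm.toMonoidHom) ⟨e x, by
    rw [Subgroup.mem_comap]
    show e.symm (e x) ∈ U
    rw [MulEquiv.symm_apply_apply]; exact hx, e y, by
    rw [Subgroup.mem_comap]
    show e.symm (e y) ∈ U
    rw [MulEquiv.symm_apply_apply]; exact hy, by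
    intro h
    apply hxy
    apply e.injective
    rw [map_mul, map_mul, h]⟩
  rwa [Subgroup.index_comap_of_surjective _ e.symm.surjective] at h

end quat

theorem isCyclic_of_card_le_two {A : Type*} [Group A] [Finite A] (h : Nat.card A ≤ 2) :
    IsCyclic A := by
  have hpos : 0 < Nat.card A := Nat.card_pos
  rcases (by omega : Nat.card A = 1 ∨ Nat.card A = 2) with h1 | h2
  · haveI : Subsingleton A := (Nat.card_eq_one_iff_unique.mp h1).1
    exact isCyclic_of_subsingleton
  · haveI : Fact (Nat.Prime 2) := ⟨Nat.prime_two⟩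
    exact isCyclic_of_prime_card h2

theorem perfect_quot {G : Type*} [Group G] (N : Subgroup G) [N.Normal] (h : commutator G = ⊤) :
    commutator (G ⧸ N) = ⊤ := by
  rw [commutator_def] at h ⊢
  have := congrArg (Subgroup.map (QuotientGroup.mk' N)) h
  rw [Subgroup.map_commutator, Subgroup.map_top_of_surjective _ (QuotientGroup.mk'_surjective N)]
    at this
  exact this

theorem card_SL23 : Nat.card (Matrix.SpecialLinearGroup (Fin 2) (ZMod 3)) = 24 := by
  rw [Nat.card_eq_fintype_card]
  decide +kernel


section main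

theorem perfect_fpf {G : Type u} [Group G] [Finite G] {R : Type u} [Ring R] (ρ : G →* R)
    (h : Fpf ρ)
    (hloc : ∀ z a b : G, z ≠ 1 → z * z = 1 → a ^ 3 = 1 → b ^ 3 = 1 → a * b ≠ b * a →
      (Nat.card (Subgroup.closure ({c : G | c ^ 3 = 1} ∪ {z})) = 24 ∨
        Nat.card (Subgroup.closure ({c : G | c ^ 3 = 1} ∪ {z})) = 120) ∧
      ∃ Q : Subgroup G, Q ≤ Subgroup.closure ({c : G | c ^ 3 = 1} ∪ {z}) ∧ Nat.card Q = 8 ∧
        ∃ x ∈ Q, ∃ j ∈ Q, x * j ≠ j * x)
    (hperf : commutator G = ⊤) (hnt : Nontrivial G) :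
    Nonempty (G ≃* Matrix.SpecialLinearGroup (Fin 2) (ZMod 5)) := by
  classical
  haveI : Fact (Nat.Prime 2) := ⟨Nat.prime_two⟩
  haveI : Fact (Nat.Prime 3) := ⟨Nat.prime_three⟩
  have hsyl : ∀ (p : ℕ) [Fact p.Prime] (P : Sylow p G),
      IsCyclic P ∨ (p = 2 ∧ ∃ n, Nonempty (P ≃* QuaternionGroup (2 ^ n))) := by
    intro p _ P
    exact Fpf.pgroup_cyclic_or_quat (h.restrict (P : Subgroup G)) p P.2
  have hns : ¬ Group.IsSolvable G := by
    intro hs
    have := Group.IsSolvable.commutator_lt_top_of_nontrivial G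
    rw [hperf] at this
    exact lt_irrefl _ this
  have hnz : ¬ IsZGroup G := by
    intro hz
    exact hns inferInstance
  obtain ⟨S₀, n, hn, ⟨e₀⟩⟩ : ∃ (S₀ : Sylow 2 G) (n : ℕ), 1 ≤ n ∧
      Nonempty (S₀ ≃* QuaternionGroup (2 ^ n)) := by
    by_contra hcon
    push Not at hcon
    apply hnz
    refine ⟨?_⟩
    intro p hp P
    haveI := Fact.mk hp
    rcases hsyl p P with hc | ⟨rfl, n, ⟨e⟩⟩
    · exact hc
    · rcases Nat.eq_zero_or_pos n with rfl | hpos
      · haveI : IsCyclic (QuaternionGroup (2 ^ 0)) := by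
          rw [pow_zero]; exact QuaternionGroup.quaternionGroup_one_isCyclic
        exact isCyclic_of_surjective e.symm e.symm.surjective
      · exact ((hcon P n hpos).false e).elim
  have hS₀card : Nat.card S₀ = 4 * 2 ^ n := by
    haveI : NeZero (2 ^ n) := ⟨by positivity⟩
    rw [Nat.card_congr e₀.toEquiv, Nat.card_eq_fintype_card, QuaternionGroup.card]
  have h106 := Cfsg.Agent.S0106.result S₀ n hn ⟨e₀⟩
  have h3 : 3 ∣ Nat.card G := by
    rcases h106 with ⟨P, N, hNn, hc⟩ | ⟨H, K, hK, ⟨e⟩⟩
    · exfalso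
      haveI := hNn
      have hidx : N.index = Nat.card P := hc.symm.index_eq_card
      have hPcard : Nat.card P = 2 ^ (Nat.card G).factorization 2 := P.card_eq_multiplicity
      have hQP : IsPGroup 2 (G ⧸ N) := IsPGroup.of_card (n := (Nat.card G).factorization 2)
        (by rw [← Subgroup.index_eq_card, hidx, hPcard])
      have hnil : Group.IsNilpotent (G ⧸ N) := hQP.isNilpotent
      have hntq : Nontrivial (G ⧸ N) := by
        rw [← Finite.one_lt_card_iff_nontrivial, ← Subgroup.index_eq_card, hidx]
        have h1 : Nat.card P = Nat.card S₀ := by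
          rw [P.card_eq_multiplicity, S₀.card_eq_multiplicity]
        rw [h1, hS₀card]
        have : 0 < 2 ^ n := by positivity
        omega
      have := Group.IsSolvable.commutator_lt_top_of_nontrivial (G ⧸ N)
      rw [perfect_quot N hperf] at this
      exact lt_irrefl _ this
    · have h24 : Nat.card (H ⧸ K.subgroupOf H) = 24 := by
        rw [Nat.card_congr e.toEquiv]; exact card_SL23
      have h1 : Nat.card (H ⧸ K.subgroupOf H) ∣ Nat.card H := by
        rw [← Subgroup.index_eq_card]; exact Subgroup.index_dvd_card _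
      have h2 : Nat.card H ∣ Nat.card G := Subgroup.card_subgroup_dvd_card H
      rw [h24] at h1
      exact dvd_trans (by norm_num : 3 ∣ 24) (h1.trans h2)
  obtain ⟨a₀, ha₀⟩ := exists_prime_orderOf_dvd_card' (G := G) 3 h3
  have hex : ∃ a b : G, a ^ 3 = 1 ∧ b ^ 3 = 1 ∧ a * b ≠ b * a := by
    by_contra hcon
    push Not at hcon
    have ha3 : a₀ ^ 3 = 1 := by rw [← ha₀]; exact pow_orderOf_eq_one a₀
    have hconj : ∀ g : G, g * a₀ * g⁻¹ ∈ Subgroup.zpowers a₀ := by
      intro g
      have h1 : (g * a₀ * g⁻¹) ^ 3 = 1 := by rw [conj_pow, ha3]; group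
      have h2 : orderOf (g * a₀ * g⁻¹) = 3 := by
        have : g * a₀ * g⁻¹ = MulAut.conj g a₀ := by simp
        rw [this, MulEquiv.orderOf_eq]; exact ha₀
      exact h.mem_zpowers_of_commute Nat.prime_three ha₀ h2 (hcon _ _ ha3 h1)
    haveI hZn : (Subgroup.zpowers a₀).Normal := ⟨by
      intro x hx g
      obtain ⟨k, rfl⟩ := Subgroup.mem_zpowers_iff.mp hx
      rw [← conj_zpow]
      exact Subgroup.zpow_mem _ (hconj g) k⟩
    have hcomm : ∀ x y : MulAut (Subgroup.zpowers a₀), x * y = y * x := by
      intro x y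
      have e := IsCyclic.mulAutMulEquiv (Subgroup.zpowers a₀)
      apply e.injective
      rw [map_mul, map_mul, mul_comm]
    have hker : ∀ g : G, (MulAut.conjNormal (H := Subgroup.zpowers a₀)) g = 1 := by
      intro g
      have hg : g ∈ commutator G := by rw [hperf]; trivial
      rw [commutator_def] at hg
      have hle : ⁅(⊤ : Subgroup G), ⊤⁆ ≤ (MulAut.conjNormal (H := Subgroup.zpowers a₀)).ker := by
        rw [Subgroup.commutator_le]
        intro g₁ _ g₂ _
        rw [MonoidHom.mem_ker, map_commutatorElement, commutatorElement_eq_one_iff_commute]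
        exact hcomm _ _
      exact MonoidHom.mem_ker.mp (hle hg)
    have hcen : a₀ ∈ Subgroup.center G := by
      rw [Subgroup.mem_center_iff]
      intro g
      have h1 := congrArg (fun φ : MulAut (Subgroup.zpowers a₀) =>
        ((φ ⟨a₀, Subgroup.mem_zpowers a₀⟩ : Subgroup.zpowers a₀) : G)) (hker g)
      have h2 : g * a₀ * g⁻¹ = a₀ := h1
      calc g * a₀ = (g * a₀ * g⁻¹) * g := by group
        _ = a₀ * g := by rw [h2]
    obtain ⟨P⟩ : Nonempty (Sylow 3 G) := inferInstance
    have hPc : IsCyclic P := by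
      rcases hsyl 3 P with hc | ⟨h32, -⟩
      · exact hc
      · omega
    obtain ⟨c, hc⟩ := IsCyclic.exists_ofOrder_eq_natCard (α := P)
    have hco : orderOf (c : G) = 3 ^ (Nat.card G).factorization 3 := by
      rw [Subgroup.orderOf_coe, hc, P.card_eq_multiplicity]
    have htr : ∀ g : G, g ^ (Subgroup.center G).index = 1 := by
      intro g
      have hg : MonoidHom.transferCenterPow G g = 1 := by
        have hg' : g ∈ commutator G := by rw [hperf]; trivial
        rw [commutator_def] at hg'
        have hle : ⁅(⊤ : Subgroup G), ⊤⁆ ≤ (MonoidHom.transferCenterPow G).ker := by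
          rw [Subgroup.commutator_le]
          intro g₁ _ g₂ _
          rw [MonoidHom.mem_ker, map_commutatorElement, commutatorElement_eq_one_iff_commute]
          apply Subtype.ext
          exact (Subgroup.mem_center_iff.mp (MonoidHom.transferCenterPow G g₂).2 _)
        exact MonoidHom.mem_ker.mp (hle hg')
      have := congrArg Subtype.val hg
      rwa [MonoidHom.transferCenterPow_apply] at this
    have hdvd : 3 ^ (Nat.card G).factorization 3 ∣ (Subgroup.center G).index := by
      rw [← hco]; exact orderOf_dvd_of_pow_eq_one (htr c)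
    have h3Z : 3 ∣ Nat.card (Subgroup.center G) := by
      have : orderOf (⟨a₀, hcen⟩ : Subgroup.center G) = 3 := by
        rw [Subgroup.orderOf_mk]; exact ha₀
      rw [← this]; exact orderOf_dvd_natCard _
    have hmul := Subgroup.index_mul_card (Subgroup.center G)
    have hbad : 3 ^ ((Nat.card G).factorization 3 + 1) ∣
        (Subgroup.center G).index * Nat.card (Subgroup.center G) := by
      rw [pow_succ]
      exact Nat.mul_dvd_mul hdvd h3Z
    rw [hmul] at hbad
    exact Nat.pow_succ_factorization_not_dvd Nat.card_pos.ne' Nat.prime_three hbad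
  obtain ⟨a, b, ha, hb, hab⟩ := hex
  have h2 : 2 ∣ Nat.card G := by
    have h1 : Nat.card S₀ ∣ Nat.card G := Subgroup.card_subgroup_dvd_card _
    rw [hS₀card] at h1
    exact dvd_trans (Dvd.dvd.mul_right (by norm_num : 2 ∣ 4) _) h1
  obtain ⟨z, hz⟩ := exists_prime_orderOf_dvd_card' (G := G) 2 h2
  have hz1 : z ≠ 1 := by
    intro h0; rw [h0, orderOf_one] at hz; omega
  have hzz : z * z = 1 := by rw [← pow_two, ← hz]; exact pow_orderOf_eq_one z
  have hzc : ∀ g : G, g * z = z * g := fun g => h.invol_central hz1 hzz g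
  obtain ⟨hcardN, Q, hQN, hQ8, x, hxQ, j, hjQ, hxj⟩ := hloc z a b hz1 hzz ha hb hab
  obtain ⟨N, hNdef⟩ : ∃ N : Subgroup G, N = Subgroup.closure ({c : G | c ^ 3 = 1} ∪ {z}) :=
    ⟨_, rfl⟩
  rw [← hNdef] at hcardN hQN
  have hNn : N.Normal := ⟨by
    intro n hn g
    rw [hNdef] at hn ⊢
    induction hn using Subgroup.closure_induction with
    | mem x hx =>
      refine Subgroup.subset_closure ?_
      rcases hx with hx | hx
      · left
        show (g * x * g⁻¹) ^ 3 = 1
        rw [conj_pow, (hx : x ^ 3 = 1)]; group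
      · right
        rw [Set.mem_singleton_iff] at hx ⊢
        rw [hx, hzc g]; group
    | one => rw [mul_one, mul_inv_cancel]; exact Subgroup.one_mem _
    | mul x y _ _ hx hy =>
      have e : g * (x * y) * g⁻¹ = (g * x * g⁻¹) * (g * y * g⁻¹) := by group
      rw [e]
      exact Subgroup.mul_mem _ hx hy
    | inv x _ hx =>
      have e : g * x⁻¹ * g⁻¹ = (g * x * g⁻¹)⁻¹ := by group
      rw [e]
      exact Subgroup.inv_mem _ hx⟩
  have hQp : IsPGroup 2 Q := IsPGroup.of_card (n := 3) (by rw [hQ8]; norm_num)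
  obtain ⟨S, hQS⟩ := hQp.exists_le_sylow
  obtain ⟨m, ⟨e⟩⟩ : ∃ m, Nonempty (S ≃* QuaternionGroup (2 ^ m)) := by
    rcases hsyl 2 S with hc | ⟨-, m, he⟩
    · exfalso
      obtain ⟨g, hg⟩ := hc.exists_generator
      obtain ⟨k1, hk1⟩ := Subgroup.mem_zpowers_iff.mp (hg ⟨x, hQS hxQ⟩)
      obtain ⟨k2, hk2⟩ := Subgroup.mem_zpowers_iff.mp (hg ⟨j, hQS hjQ⟩)
      apply hxj
      have : (⟨x, hQS hxQ⟩ : S) * ⟨j, hQS hjQ⟩ = ⟨j, hQS hjQ⟩ * ⟨x, hQS hxQ⟩ := by
        rw [← hk1, ← hk2]
        exact ((Commute.refl g).zpow_zpow k1 k2).eq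
      exact congrArg Subtype.val this
    · exact ⟨m, he⟩
  haveI : NeZero (2 ^ m) := ⟨by positivity⟩
  have hidxS : (N.subgroupOf S).index ≤ 2 :=
    quat_iso_index e (N.subgroupOf S) ⟨⟨x, hQS hxQ⟩, Subgroup.mem_subgroupOf.mpr (hQN hxQ),
      ⟨j, hQS hjQ⟩, Subgroup.mem_subgroupOf.mpr (hQN hjQ),
      fun hh => hxj (congrArg Subtype.val hh)⟩
  have hπ : Function.Surjective (QuotientGroup.mk' N) := QuotientGroup.mk'_surjective N
  have hZq : IsZGroup (G ⧸ N) := by
    refine ⟨?_⟩
    intro p hp P'
    haveI := Fact.mk hp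
    by_cases hp2 : p = 2
    · subst hp2
      obtain ⟨g, hg⟩ := MulAction.exists_smul_eq (G ⧸ N) (S.mapSurjective hπ) P'
      have hcyc : IsCyclic (S.mapSurjective hπ) := by
        have hcard : Nat.card (S.mapSurjective hπ) ≤ 2 := by
          have h1 : ((QuotientGroup.mk' N).comp (S : Subgroup G).subtype).ker =
              N.subgroupOf S := by
            rw [← MonoidHom.comap_ker, QuotientGroup.ker_mk']; rfl
          have h2 : ((QuotientGroup.mk' N).comp (S : Subgroup G).subtype).range =
              (S : Subgroup G).map (QuotientGroup.mk' N) := by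
            rw [MonoidHom.range_comp, Subgroup.range_subtype]
          have h3 := Subgroup.index_ker ((QuotientGroup.mk' N).comp (S : Subgroup G).subtype)
          rw [h1, h2] at h3
          have h4 : Nat.card (S.mapSurjective hπ) =
              Nat.card ((S : Subgroup G).map (QuotientGroup.mk' N)) := rfl
          rw [h4, ← h3]; exact hidxS
        exact isCyclic_of_card_le_two hcard
      subst hg
      exact isCyclic_of_surjective (Sylow.equivSMul (S.mapSurjective hπ) g)
        (MulEquiv.surjective _)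
    · obtain ⟨P⟩ : Nonempty (Sylow p G) := inferInstance
      obtain ⟨g, hg⟩ := MulAction.exists_smul_eq (G ⧸ N) (P.mapSurjective hπ) P'
      have hPc : IsCyclic P := by
        rcases hsyl p P with hc | ⟨h', -⟩
        · exact hc
        · exact absurd h' hp2
      have hcyc : IsCyclic (P.mapSurjective hπ) :=
        isCyclic_of_surjective ((QuotientGroup.mk' N).subgroupMap (P : Subgroup G))
          (MonoidHom.subgroupMap_surjective _ _)
      subst hg
      exact isCyclic_of_surjective (Sylow.equivSMul (P.mapSurjective hπ) g)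
        (MulEquiv.surjective _)
  have hNtop : N = ⊤ := by
    by_contra hne
    have hntq : Nontrivial (G ⧸ N) := by
      by_contra hcon
      rw [not_nontrivial_iff_subsingleton] at hcon
      exact hne (QuotientGroup.subgroup_eq_top_of_subsingleton N hcon)
    have := IsZGroup.commutator_lt (G := G ⧸ N)
    rw [perfect_quot N hperf] at this
    exact lt_irrefl _ this
  have hcardG : Nat.card G = 24 ∨ Nat.card G = 120 := by
    rw [hNtop, Subgroup.card_top] at hcardN
    exact hcardN
  rcases hcardG with h24 | h120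
  · exact absurd (Cfsg.Agent.S3378.solv_lt_60 24 G h24 (by norm_num)) hns
  · refine Cfsg.Agent.S3378.result.1 G h120 hns ?_
    intro P
    obtain ⟨g, hg⟩ := MulAction.exists_smul_eq G S₀ P
    have hn1 : n = 1 := by
      by_contra hne
      have hn2 : 2 ≤ n := by omega
      have h1 : Nat.card S₀ ∣ Nat.card G := Subgroup.card_subgroup_dvd_card _
      rw [hS₀card, h120] at h1
      have h4 : 2 ^ 2 ∣ 2 ^ n := Nat.pow_dvd_pow 2 hn2
      have h16 : 4 * 2 ^ 2 ∣ 120 := dvd_trans (Nat.mul_dvd_mul_left 4 h4) h1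
      norm_num at h16
    subst hn1
    subst hg
    have e1 : (S₀ : Subgroup G) ≃* QuaternionGroup 2 := by
      have := e₀
      rw [pow_one] at this
      exact this
    exact ⟨(Sylow.equivSMul S₀ g).symm.trans e1⟩

end main


section final

open scoped IsMulCommutative

theorem global_of_local {K : Type u} [Group K] [Finite K] (G : Subgroup (MulAut K))
    (hloc : ∀ (R : Type u) [Ring R] (ρ : G →* R), Fpf ρ → ∀ z a b : G, z ≠ 1 → z * z = 1 →
      a ^ 3 = 1 → b ^ 3 = 1 → a * b ≠ b * a →
      (Nat.card (Subgroup.closure ({c : G | c ^ 3 = 1} ∪ {z})) = 24 ∨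
        Nat.card (Subgroup.closure ({c : G | c ^ 3 = 1} ∪ {z})) = 120) ∧
      ∃ Q : Subgroup G, Q ≤ Subgroup.closure ({c : G | c ^ 3 = 1} ∪ {z}) ∧ Nat.card Q = 8 ∧
        ∃ x ∈ Q, ∃ j ∈ Q, x * j ≠ j * x)
    (hfpf : ∀ φ ∈ G, φ ≠ 1 → ∀ k : K, φ k = k → k = 1) (hperf : commutator G = ⊤)
    (hne : G ≠ ⊥) : Nonempty (G ≃* Matrix.SpecialLinearGroup (Fin 2) (ZMod 5)) := by
  haveI hfinA : Finite (MulAut K) := DFunLike.finite (MulAut K)
  have hF := exists_fpf G hfpf hne
  exact perfect_fpf (rhoC G) hF (hloc _ (rhoC G) hF) hperf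
    ((Subgroup.nontrivial_iff_ne_bot G).mpr hne)

end final

end Cfsg.Agent.Lib.Helper63.ZasGlobal
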